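import Mathlib

/-!
# Groups acting on finite `p`-torsion groups commuting with a reduced ring of operators

`Good R`: `R` is a commutative reduced subring of `End(W)`.

`Concl p R ρ`: there is a normal subgroup `N` acting unipotently with `|R| * |E / N|_p ≤ |W|`.

`reducible_step`: the conclusion passes from invariant sections to `W`.
-/

set_option autoImplicit false

namespace Cfsg.Agent.Lib.CharDeep.PartBound

universe u v

section Defs

variable {W : Type v} [AddCommGroup W]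

/-- `R` is a commutative reduced ring of endomorphisms. -/
structure Good (R : Subring (AddMonoid.End W)) : Prop where
  comm : ∀ a ∈ R, ∀ b ∈ R, a * b = b * a
  red : ∀ a ∈ R, a * a = 0 → a = 0

/-- The conclusion of the main theorem for one action. -/
def Concl (p : ℕ) {E : Type u} [Group E] (R : Subring (AddMonoid.End W))
    (ρ : E →* AddMonoid.End W) : Prop :=
  ∃ N : Subgroup E, N.Normal ∧ (∀ n ∈ N, ∃ k : ℕ, ρ (n ^ p ^ k) = 1) ∧
    Nat.card R * ordProj[p] N.index ≤ Nat.card W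

end Defs

/-- The statement of the main theorem for the group `E`. -/
def Red (p : ℕ) (E : Type u) [Group E] : Prop :=
  ∀ (W : Type v) [AddCommGroup W] [Finite W] [Nontrivial W], (∀ w : W, p • w = 0) →
    ∀ R : Subring (AddMonoid.End W), Good R → ∀ ρ : E →* AddMonoid.End W,
      (∀ g, ∀ a ∈ R, ρ g * a = a * ρ g) → Concl p R ρ

section Good

variable {W : Type v} [AddCommGroup W]

theorem end_mul_apply (f g : AddMonoid.End W) (x : W) : (f * g) x = f (g x) := rfl

theorem finite_end [Finite W] : Finite (AddMonoid.End W) :=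
  Finite.of_injective (fun φ : AddMonoid.End W => (φ : W → W)) DFunLike.coe_injective

theorem Good.eq_zero_of_pow {R : Subring (AddMonoid.End W)} (hR : Good R) {a : AddMonoid.End W}
    (ha : a ∈ R) : ∀ n : ℕ, a ^ n = 0 → a = 0 := by
  intro n
  induction n using Nat.strong_induction_on with
  | _ n IH =>
    intro h
    rcases Nat.lt_or_ge n 2 with h2 | h2
    · interval_cases n
      · have h1 : (1 : AddMonoid.End W) = 0 := by simpa using h
        calc a = a * 1 := (mul_one a).symm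
          _ = 0 := by rw [h1, mul_zero]
      · simpa using h
    · have hk : (n + 1) / 2 < n := by omega
      apply IH _ hk
      apply hR.red _ (R.pow_mem ha _)
      have e : (n + 1) / 2 + (n + 1) / 2 = n + ((n + 1) / 2 + (n + 1) / 2 - n) := by omega
      rw [← pow_add, e, pow_add, h, zero_mul]

theorem Good.exists_pow [Finite W] {R : Subring (AddMonoid.End W)} (hR : Good R)
    {a : AddMonoid.End W} (ha : a ∈ R) : ∃ t : ℕ, 1 ≤ t ∧ a ^ (t + 1) = a := by
  haveI := finite_end (W := W)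
  obtain ⟨i, j, hij, heq⟩ : ∃ i j : ℕ, i < j ∧ a ^ i = a ^ j := by
    obtain ⟨x, y, hxy, h⟩ := Finite.exists_ne_map_eq_of_infinite (fun i : ℕ => a ^ i)
    rcases lt_or_gt_of_ne hxy with h1 | h1
    · exact ⟨x, y, h1, h⟩
    · exact ⟨y, x, h1, h.symm⟩
  obtain ⟨t, rfl⟩ : ∃ t, j = i + (t + 1) := ⟨j - i - 1, by omega⟩
  refine ⟨t + 1, by omega, ?_⟩
  -- `b = a * (1 - a ^ (t+1))` is nilpotent
  set c := (1 : AddMonoid.End W) - a ^ (t + 1) with hc
  have hcomm : Commute a c := (Commute.one_right a).sub_right ((Commute.refl a).pow_right _)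
  have h0 : a ^ i * c = 0 := by
    rw [hc, mul_sub, mul_one, ← pow_add, ← heq, sub_self]
  have hb : (a * c) ^ (i + 1) = 0 := by
    rw [hcomm.mul_pow, pow_succ a i, pow_succ' c i]
    have : a ^ i * a * (c * c ^ i) = a * (a ^ i * c) * c ^ i := by
      have h1 : a ^ i * a = a * a ^ i := ((Commute.refl a).pow_left i).eq
      rw [h1]
      noncomm_ring
    rw [this, h0, mul_zero, zero_mul]
  have hmem : a * c ∈ R := R.mul_mem ha (R.sub_mem R.one_mem (R.pow_mem ha _))
  have hz := hR.eq_zero_of_pow hmem _ hb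
  rw [hc, mul_sub, mul_one, sub_eq_zero] at hz
  rw [pow_succ', ← hz]

end Good

section Sections

variable {W : Type v} [AddCommGroup W]

/-- The endomorphisms stabilising `U`. -/
def stabS (U : AddSubgroup W) : Subring (AddMonoid.End W) where
  carrier := {φ | ∀ x ∈ U, φ x ∈ U}
  mul_mem' := fun ha hb x hx => ha _ (hb x hx)
  one_mem' := fun _ hx => hx
  add_mem' := fun ha hb x hx => U.add_mem (ha x hx) (hb x hx)
  zero_mem' := fun _ _ => U.zero_mem
  neg_mem' := fun ha x hx => U.neg_mem (ha x hx)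

theorem mem_stabS {U : AddSubgroup W} {φ : AddMonoid.End W} : φ ∈ stabS U ↔ ∀ x ∈ U, φ x ∈ U :=
  Iff.rfl

/-- Restriction to `U`. -/
def resH (U : AddSubgroup W) : stabS U →+* AddMonoid.End U where
  toFun φ :=
    { toFun := fun x => ⟨φ.1 x, φ.2 x x.2⟩
      map_zero' := Subtype.ext (map_zero φ.1)
      map_add' := fun x y => Subtype.ext (map_add φ.1 (x : W) (y : W)) }
  map_one' := rfl
  map_mul' _ _ := rfl
  map_zero' := rfl
  map_add' _ _ := rfl

theorem resH_apply (U : AddSubgroup W) (φ : stabS U) (x : U) : ((resH U φ x : U) : W) = φ.1 x := rfl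

/-- The action on `W / U`. -/
def quoH (U : AddSubgroup W) : stabS U →+* AddMonoid.End (W ⧸ U) where
  toFun φ := QuotientAddGroup.map U U φ.1 (fun x hx => φ.2 x hx)
  map_one' := by
    refine AddMonoidHom.ext fun x => ?_
    obtain ⟨y, rfl⟩ := QuotientAddGroup.mk_surjective x
    rfl
  map_mul' φ ψ := by
    refine AddMonoidHom.ext fun x => ?_
    obtain ⟨y, rfl⟩ := QuotientAddGroup.mk_surjective x
    rfl
  map_zero' := by
    refine AddMonoidHom.ext fun x => ?_
    obtain ⟨y, rfl⟩ := QuotientAddGroup.mk_surjective x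
    rfl
  map_add' φ ψ := by
    refine AddMonoidHom.ext fun x => ?_
    obtain ⟨y, rfl⟩ := QuotientAddGroup.mk_surjective x
    rfl

theorem quoH_apply (U : AddSubgroup W) (φ : stabS U) (x : W) :
    quoH U φ (x : W ⧸ U) = ((φ.1 x : W) : W ⧸ U) := rfl

/-- The image of `R` on `U`. -/
def resR (U : AddSubgroup W) (R : Subring (AddMonoid.End W)) : Subring (AddMonoid.End U) :=
  (R.comap (stabS U).subtype).map (resH U)

/-- The image of `R` on `W / U`. -/
def quoR (U : AddSubgroup W) (R : Subring (AddMonoid.End W)) : Subring (AddMonoid.End (W ⧸ U)) :=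
  (R.comap (stabS U).subtype).map (quoH U)

variable [Finite W] {U : AddSubgroup W} {R : Subring (AddMonoid.End W)}

theorem good_resR (hR : Good R) (hUR : ∀ a ∈ R, ∀ x ∈ U, a x ∈ U) : Good (resR U R) := by
  constructor
  · rintro _ ⟨a, ha, rfl⟩ _ ⟨b, hb, rfl⟩
    rw [← map_mul, ← map_mul]
    congr 1
    exact Subtype.ext (hR.comm _ ha _ hb)
  · rintro _ ⟨a, ha, rfl⟩ h
    have ha' : a.1 ∈ R := ha
    obtain ⟨t, ht1, ht⟩ := hR.exists_pow ha'
    have h0 : ∀ x ∈ U, a.1 (a.1 x) = 0 := by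
      intro x hx
      have := congrArg (fun f : AddMonoid.End U => ((f ⟨x, hx⟩ : U) : W)) h
      exact this
    refine AddMonoidHom.ext fun x => Subtype.ext ?_
    have e : a.1 = a.1 ^ (t - 1) * (a.1 * a.1) := by
      rw [← pow_two, ← pow_add]
      have : t - 1 + 2 = t + 1 := by omega
      rw [this, ht]
    show a.1 (x : W) = 0
    rw [e, end_mul_apply, end_mul_apply, h0 x x.2, map_zero]

theorem good_quoR (hR : Good R) (hUR : ∀ a ∈ R, ∀ x ∈ U, a x ∈ U) : Good (quoR U R) := by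
  constructor
  · rintro _ ⟨a, ha, rfl⟩ _ ⟨b, hb, rfl⟩
    rw [← map_mul, ← map_mul]
    congr 1
    exact Subtype.ext (hR.comm _ ha _ hb)
  · rintro _ ⟨a, ha, rfl⟩ h
    have ha' : a.1 ∈ R := ha
    obtain ⟨t, ht1, ht⟩ := hR.exists_pow ha'
    have h0 : ∀ x : W, a.1 (a.1 x) ∈ U := by
      intro x
      have := congrArg (fun f : AddMonoid.End (W ⧸ U) => f (x : W ⧸ U)) h
      have h1 : ((a.1 (a.1 x) : W) : W ⧸ U) = 0 := this
      exact (QuotientAddGroup.eq_zero_iff _).mp h1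
    have hstab : ∀ n : ℕ, a.1 ^ n ∈ stabS U := fun n => (stabS U).pow_mem a.2 n
    refine AddMonoidHom.ext fun y => ?_
    obtain ⟨x, rfl⟩ := QuotientAddGroup.mk_surjective y
    have e : a.1 = a.1 ^ (t - 1) * (a.1 * a.1) := by
      rw [← pow_two, ← pow_add]
      have : t - 1 + 2 = t + 1 := by omega
      rw [this, ht]
    have h2 : a.1 x ∈ U := by
      rw [e, end_mul_apply, end_mul_apply]
      exact hstab _ _ (h0 x)
    exact (QuotientAddGroup.eq_zero_iff _).mpr h2

theorem card_le_card_mul (hR : Good R) (hUR : ∀ a ∈ R, ∀ x ∈ U, a x ∈ U) :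
    Nat.card R ≤ Nat.card (resR U R) * Nat.card (quoR U R) := by
  classical
  haveI := finite_end (W := W)
  haveI : Finite (AddMonoid.End U) := finite_end
  haveI : Finite (AddMonoid.End (W ⧸ U)) := finite_end
  rw [← Nat.card_prod]
  let g : R → resR U R × quoR U R := fun a =>
    (⟨resH U ⟨a.1, hUR a.1 a.2⟩, ⟨⟨a.1, hUR a.1 a.2⟩, a.2, rfl⟩⟩,
     ⟨quoH U ⟨a.1, hUR a.1 a.2⟩, ⟨⟨a.1, hUR a.1 a.2⟩, a.2, rfl⟩⟩)
  apply Nat.card_le_card_of_injective g
  intro a b hab
  have h1 : resH U ⟨a.1, hUR a.1 a.2⟩ = resH U ⟨b.1, hUR b.1 b.2⟩ :=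
    congrArg (fun x => (x.1 : AddMonoid.End U)) hab
  have h2 : quoH U ⟨a.1, hUR a.1 a.2⟩ = quoH U ⟨b.1, hUR b.1 b.2⟩ :=
    congrArg (fun x => (x.2 : AddMonoid.End (W ⧸ U))) hab
  have hc : (a.1 - b.1 : AddMonoid.End W) ∈ R := R.sub_mem a.2 b.2
  have hU0 : ∀ x ∈ U, (a.1 - b.1 : AddMonoid.End W) x = 0 := by
    intro x hx
    have h3 : a.1 x = b.1 x := congrArg (fun f : AddMonoid.End U => ((f ⟨x, hx⟩ : U) : W)) h1
    show a.1 x - b.1 x = 0
    rw [h3, sub_self]
  have hUW : ∀ x : W, (a.1 - b.1 : AddMonoid.End W) x ∈ U := by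
    intro x
    have := congrArg (fun f : AddMonoid.End (W ⧸ U) => f (x : W ⧸ U)) h2
    have h3 : ((a.1 x : W) : W ⧸ U) = ((b.1 x : W) : W ⧸ U) := this
    have h4 := (QuotientAddGroup.eq.mp h3)
    have h5 : (a.1 - b.1 : AddMonoid.End W) x = -(-a.1 x + b.1 x) := by
      show a.1 x - b.1 x = _
      abel
    rw [h5]
    exact U.neg_mem h4
  have hsq : (a.1 - b.1 : AddMonoid.End W) * (a.1 - b.1) = 0 := by
    ext x
    rw [end_mul_apply]
    exact hU0 _ (hUW x)
  have := hR.red _ hc hsq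
  exact Subtype.ext (sub_eq_zero.mp this)

theorem index_inf_part_le {E : Type u} [Group E] [Finite E] (p : ℕ) (N₁ N₂ : Subgroup E)
    (h2 : N₂.Normal) : ordProj[p] (N₁ ⊓ N₂).index ≤ ordProj[p] N₁.index * ordProj[p] N₂.index := by
  have h1 : (N₁ ⊓ N₂).index = N₂.relIndex N₁ * N₁.index := by
    rw [← Subgroup.relIndex_mul_index (inf_le_left : N₁ ⊓ N₂ ≤ N₁), inf_comm,
      Subgroup.inf_relIndex_right]
  have hd : (N₁ ⊓ N₂).index ∣ N₂.index * N₁.index := by
    rw [h1]
    exact mul_dvd_mul_right (Subgroup.relIndex_dvd_index_of_normal N₂ N₁) _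
  have h10 : N₁.index ≠ 0 := Subgroup.index_ne_zero_of_finite
  have h20 : N₂.index ≠ 0 := Subgroup.index_ne_zero_of_finite
  have h3 := Nat.ordProj_dvd_ordProj_of_dvd (mul_ne_zero h20 h10) hd p
  rw [Nat.ordProj_mul p h20 h10, mul_comm] at h3
  exact Nat.le_of_dvd (mul_pos (Nat.ordProj_pos _ _) (Nat.ordProj_pos _ _)) h3

variable {E : Type u} [Group E] [Finite E] {p : ℕ} {ρ : E →* AddMonoid.End W}

/-- The reduction to invariant sections. -/
theorem reducible_step [Fact p.Prime] (hW : ∀ w : W, p • w = 0) (hR : Good R)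
    (hρ : ∀ g, ∀ a ∈ R, ρ g * a = a * ρ g) (hUR : ∀ a ∈ R, ∀ x ∈ U, a x ∈ U)
    (hUE : ∀ g, ∀ x ∈ U, ρ g x ∈ U) (hU0 : U ≠ ⊥) (hU1 : U ≠ ⊤)
    (IH : ∀ (W' : Type v) [AddCommGroup W'] [Finite W'] [Nontrivial W'], Nat.card W' < Nat.card W →
      (∀ w : W', p • w = 0) → ∀ R' : Subring (AddMonoid.End W'), Good R' →
        ∀ ρ' : E →* AddMonoid.End W', (∀ g, ∀ a ∈ R', ρ' g * a = a * ρ' g) → Concl p R' ρ') :
    Concl p R ρ := by
  classical
  have hp : p.Prime := Fact.out
  haveI hnt1 : Nontrivial U := (AddSubgroup.nontrivial_iff_ne_bot U).mpr hU0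
  haveI hnt2 : Nontrivial (W ⧸ U) := by
    rw [QuotientAddGroup.nontrivial_iff]
    exact hU1
  have hcardW : Nat.card W = Nat.card (W ⧸ U) * Nat.card U :=
    AddSubgroup.card_eq_card_quotient_mul_card_addSubgroup U
  have hc1 : 1 < Nat.card U := Finite.one_lt_card
  have hc2 : 1 < Nat.card (W ⧸ U) := Finite.one_lt_card
  -- the actions
  let ρ₀ : E →* stabS U := ρ.codRestrict (stabS U).toSubmonoid (fun g => hUE g)
  let ρ₁ : E →* AddMonoid.End U := (resH U).toMonoidHom.comp ρ₀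
  let ρ₂ : E →* AddMonoid.End (W ⧸ U) := (quoH U).toMonoidHom.comp ρ₀
  have hc₁ : ∀ g, ∀ a ∈ resR U R, ρ₁ g * a = a * ρ₁ g := by
    rintro g _ ⟨a, ha, rfl⟩
    show resH U (ρ₀ g) * resH U a = resH U a * resH U (ρ₀ g)
    rw [← map_mul, ← map_mul]
    congr 1
    exact Subtype.ext (hρ g a.1 ha)
  have hc₂ : ∀ g, ∀ a ∈ quoR U R, ρ₂ g * a = a * ρ₂ g := by
    rintro g _ ⟨a, ha, rfl⟩
    show quoH U (ρ₀ g) * quoH U a = quoH U a * quoH U (ρ₀ g)
    rw [← map_mul, ← map_mul]
    congr 1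
    exact Subtype.ext (hρ g a.1 ha)
  have hW1 : ∀ w : U, p • w = 0 := fun w => Subtype.ext (hW w)
  have hW2 : ∀ w : W ⧸ U, p • w = 0 := by
    intro w
    obtain ⟨x, rfl⟩ := QuotientAddGroup.mk_surjective w
    rw [← QuotientAddGroup.mk_nsmul, hW x]
    rfl
  obtain ⟨N₁, hN₁, hu₁, hb₁⟩ :=
    IH U (by rw [hcardW]; nlinarith) hW1 (resR U R) (good_resR hR hUR) ρ₁ hc₁
  obtain ⟨N₂, hN₂, hu₂, hb₂⟩ :=
    IH (W ⧸ U) (by rw [hcardW]; nlinarith) hW2 (quoR U R) (good_quoR hR hUR) ρ₂ hc₂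
  refine ⟨N₁ ⊓ N₂, Subgroup.normal_inf_normal N₁ N₂, ?_, ?_⟩
  · -- unipotence
    rintro n ⟨hn1, hn2⟩
    obtain ⟨k₁, hk₁⟩ := hu₁ n hn1
    obtain ⟨k₂, hk₂⟩ := hu₂ n hn2
    -- `T` acts trivially on `U` and on `W / U`
    set m := n ^ (p ^ k₁ * p ^ k₂) with hm
    have hT1 : ∀ x ∈ U, ρ m x = x := by
      intro x hx
      have h1 : ρ₁ (n ^ p ^ k₁) = 1 := hk₁
      have h2 : ρ₁ m = 1 := by
        rw [hm, pow_mul, map_pow, h1, one_pow]
      have h3 := congrArg (fun f : AddMonoid.End U => ((f ⟨x, hx⟩ : U) : W)) h2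
      exact h3
    have hT2 : ∀ x : W, -(x) + ρ m x ∈ U := by
      intro x
      have h2 : ρ₂ m = 1 := by
        rw [hm, mul_comm, pow_mul, map_pow, hk₂, one_pow]
      have := congrArg (fun f : AddMonoid.End (W ⧸ U) => f (x : W ⧸ U)) h2
      have h3 : ((ρ m x : W) : W ⧸ U) = (x : W ⧸ U) := this
      exact QuotientAddGroup.eq.mp h3.symm
    refine ⟨k₁ + k₂ + 1, ?_⟩
    have hpow : ∀ (j : ℕ) (x : W), ρ (m ^ j) x = x + j • (-(x) + ρ m x) := by
      intro j x
      induction j with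
      | zero => simp
      | succ j ih =>
        have h1 : ρ (m ^ (j + 1)) x = ρ (m ^ j) (ρ m x) := by
          rw [pow_succ, map_mul, end_mul_apply]
        have h2 : ρ m x = x + (-(x) + ρ m x) := by abel
        have h3 : ρ (m ^ j) (-(x) + ρ m x) = -(x) + ρ m x := by
          rw [map_pow]
          have : ∀ i : ℕ, (ρ m ^ i) (-(x) + ρ m x) = -(x) + ρ m x := by
            intro i
            induction i with
            | zero => simp
            | succ i ih2 =>
              rw [pow_succ, end_mul_apply, hT1 _ (hT2 x), ih2]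
          exact this j
        rw [h1]
        conv_lhs => rw [h2]
        rw [map_add, ih, h3, succ_nsmul]
        abel
    have he : n ^ p ^ (k₁ + k₂ + 1) = m ^ p := by
      rw [hm, ← pow_mul, pow_succ, pow_add]
    rw [he]
    ext x
    rw [hpow, hW, add_zero]
    rfl
  · -- the bound
    have hle := card_le_card_mul (U := U) hR hUR
    have hi := index_inf_part_le p N₁ N₂ hN₂
    calc Nat.card R * ordProj[p] (N₁ ⊓ N₂).index
        ≤ (Nat.card (resR U R) * Nat.card (quoR U R)) *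
            (ordProj[p] N₁.index * ordProj[p] N₂.index) := Nat.mul_le_mul hle hi
      _ = (Nat.card (resR U R) * ordProj[p] N₁.index) *
            (Nat.card (quoR U R) * ordProj[p] N₂.index) := by ring
      _ ≤ Nat.card U * Nat.card (W ⧸ U) := Nat.mul_le_mul hb₁ hb₂
      _ = Nat.card W := by rw [hcardW, mul_comm]

end Sections

end Cfsg.Agent.Lib.CharDeep.PartBound
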