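import Cfsg.Agent.Lib.CharDeep.PartBound.Complement
import Cfsg.Agent.Lib.Char.Complete
import Cfsg.Agent.Lib.Char.Induced
import Cfsg.Agent.Lib.Char.IndRep
import Cfsg.Agent.Lib.Char.Conj
import Cfsg.Agent.Lib.Char.Linear
import Cfsg.Agent.Lib.OddChar.Dual

/-!
# Quasi-primitive characters of solvable groups are primitive

* `sq_dvd_index`: if `ξ` is irreducible, `X / N` abelian and `ξ_N = e ξ₀` with `ξ₀` irreducible, then
  `e ^ 2` divides `|X : N|`.
* `chain`: for a quasi-primitive character `χ` of a solvable group and a normal subgroup `A`, the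
  multiplicity `a` of `χ_A = a ϑ` satisfies `a ^ 2 ∣ |G : A|`.
* `mult_dvd`: if moreover `χ = ψ^G` with `A ≤ H`, then `|G : H|` divides `a`.
* `berger`: the main theorem.
-/

set_option autoImplicit false
set_option linter.unusedSectionVars false

namespace Cfsg.Agent.Lib.CharDeep.PartBound

open Cfsg Cfsg.Agent.Lib.Char.Basic Cfsg.Agent.Lib.Char.Ortho Cfsg.Agent.Lib.Char.Complete
  Cfsg.Agent.Lib.Char.Induced Cfsg.Agent.Lib.Char.IndRep Cfsg.Agent.Lib.Char.Conj
  Cfsg.Agent.Lib.Char.Linear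
open scoped ComplexConjugate commutatorElement

universe u

theorem sq_dvd_index {X : Type u} [Group X] [Fintype X] (N : Subgroup X) [hN : N.Normal] [Fintype N]
    (hcomm : ∀ x y : X, ⁅x, y⁆ ∈ N) {ξ : X → ℂ} (hξ : IsIrrCharacter X ξ) {ξ₀ : N → ℂ}
    (hξ₀ : IsIrrCharacter N ξ₀) {e : ℕ} (hres : ∀ n : N, ξ n = (e : ℂ) * ξ₀ n) :
    e ^ 2 ∣ N.index := by
  classical
  have hmc : ∀ x y : X ⧸ N, x * y = y * x := by
    intro x y
    obtain ⟨x, rfl⟩ := QuotientGroup.mk_surjective x
    obtain ⟨y, rfl⟩ := QuotientGroup.mk_surjective y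
    have h1 : ((⁅x, y⁆ : X) : X ⧸ N) = 1 := (QuotientGroup.eq_one_iff _).mpr (hcomm x y)
    have h2 : QuotientGroup.mk' N ⁅x, y⁆ = 1 := h1
    rw [map_commutatorElement] at h2
    exact commutatorElement_eq_one_iff_mul_comm.mp h2
  letI iC : CommGroup (X ⧸ N) := { (inferInstance : Group (X ⧸ N)) with mul_comm := hmc }
  haveI henough := Cfsg.Agent.Lib.OddChar.Dual.enough (X ⧸ N)
  have hcardΓ : Nat.card ((X ⧸ N) →* ℂˣ) = Nat.card (X ⧸ N) :=
    CommGroup.card_monoidHom_of_hasEnoughRootsOfUnity (X ⧸ N) ℂ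
  haveI : Finite ((X ⧸ N) →* ℂˣ) := Nat.finite_of_card_ne_zero (by rw [hcardΓ]; exact Nat.card_pos.ne')
  letI : Fintype ((X ⧸ N) →* ℂˣ) := Fintype.ofFinite _
  let lamH : ((X ⧸ N) →* ℂˣ) → (X →* ℂˣ) := fun γ => MonoidHom.comp γ (QuotientGroup.mk' N)
  let lam : ((X ⧸ N) →* ℂˣ) → X → ℂ := fun γ x => (γ (x : X ⧸ N) : ℂ)
  have hlamH : ∀ γ, (fun g => ((lamH γ g : ℂˣ) : ℂ)) = lam γ := fun _ => rfl
  have hlam1 : ∀ γ x, lam γ x * conj (lam γ x) = 1 := by
    intro γ x
    have h1 : ‖lam γ x‖ = 1 := Cfsg.Agent.Lib.OddChar.Dual.norm_apply (lamH γ) x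
    rw [Complex.mul_conj, Complex.normSq_eq_norm_sq, h1]
    simp
  have hξc := isCharacter_of_isIrrCharacter hξ
  have hlamc : ∀ γ, IsCharacter X (lam γ) := fun γ => by
    rw [← hlamH]
    exact isCharacter_of_isIrrCharacter (isIrrCharacter_of_hom (lamH γ))
  have hirr : ∀ γ, IsIrrCharacter X (ξ * lam γ) := by
    intro γ
    apply isIrrCharacter_of_classInner_self_eq_one (isCharacter_mul hξc (hlamc γ))
    rw [← classInner_self_of_isIrr hξ]
    unfold classInner
    congr 1
    refine Finset.sum_congr rfl fun x _ => ?_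
    simp only [Pi.mul_apply, map_mul]
    calc ξ x * lam γ x * (conj (ξ x) * conj (lam γ x))
        = ξ x * conj (ξ x) * (lam γ x * conj (lam γ x)) := by ring
      _ = ξ x * conj (ξ x) := by rw [hlam1, mul_one]
  -- the stabilizer
  let S : Subgroup ((X ⧸ N) →* ℂˣ) :=
    { carrier := {γ | ∀ x, lam γ x * ξ x = ξ x}
      one_mem' := fun x => by simp [lam]
      mul_mem' := by
        intro a b ha hb x
        have h1 : lam (a * b) x = lam a x * lam b x := by simp [lam]
        rw [h1, mul_assoc, hb x, ha x]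
      inv_mem' := by
        intro a ha x
        have h1 : lam a⁻¹ x * lam a x = 1 := by simp [lam]
        calc lam a⁻¹ x * ξ x = lam a⁻¹ x * (lam a x * ξ x) := by rw [ha x]
          _ = ξ x := by rw [← mul_assoc, h1, one_mul] }
  have hinner : ∀ γ, classInner (ξ * lam γ) ξ = if γ ∈ S then 1 else 0 := by
    intro γ
    by_cases hγ : γ ∈ S
    · rw [if_pos hγ]
      have : ξ * lam γ = ξ := by
        funext x
        rw [Pi.mul_apply, mul_comm]
        exact hγ x
      rw [this]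
      exact classInner_self_of_isIrr hξ
    · rw [if_neg hγ]
      apply classInner_eq_zero_of_isIrr_of_ne (hirr γ) hξ
      intro heq
      apply hγ
      intro x
      have := congrFun heq x
      rw [Pi.mul_apply, mul_comm] at this
      exact this
  have hT1 : ∑ γ, classInner (ξ * lam γ) ξ = (Nat.card S : ℂ) := by
    simp only [hinner]
    rw [Finset.sum_boole, Nat.card_eq_fintype_card, Fintype.card_subtype]
  -- character sums
  have hsumγ : ∀ x : X, ∑ γ, lam γ x = if x ∈ N then (Nat.card (X ⧸ N) : ℂ) else 0 := by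
    intro x
    by_cases hx : x ∈ N
    · rw [if_pos hx]
      have h1 : (x : X ⧸ N) = 1 := (QuotientGroup.eq_one_iff x).mpr hx
      have h2 : ∀ γ, lam γ x = 1 := by
        intro γ
        simp only [lam]
        rw [h1, map_one, Units.val_one]
      simp only [h2, Finset.sum_const, Finset.card_univ, nsmul_eq_mul, mul_one]
      rw [← Nat.card_eq_fintype_card, hcardΓ]
    · rw [if_neg hx]
      have h1 : (x : X ⧸ N) ≠ 1 := fun h => hx ((QuotientGroup.eq_one_iff x).mp h)
      obtain ⟨φ, hφ⟩ := CommGroup.exists_apply_ne_one_of_hasEnoughRootsOfUnity (X ⧸ N) ℂ h1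
      have hs : ∑ γ, lam γ x = ((φ (x : X ⧸ N) : ℂˣ) : ℂ) * ∑ γ, lam γ x := by
        rw [Finset.mul_sum, ← Equiv.sum_comp (Equiv.mulLeft φ)]
        refine Finset.sum_congr rfl fun γ _ => ?_
        simp [lam]
      have hne : ((φ (x : X ⧸ N) : ℂˣ) : ℂ) ≠ 1 := fun h => hφ (Units.ext h)
      have h4 : (1 - ((φ (x : X ⧸ N) : ℂˣ) : ℂ)) * ∑ γ, lam γ x = 0 := by
        rw [sub_mul, one_mul, ← hs, sub_self]
      rcases mul_eq_zero.1 h4 with h5 | h5
      · exact absurd (sub_eq_zero.1 h5).symm hne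
      · exact h5
  have hcardX : (Nat.card X : ℂ) ≠ 0 := card_ne_zero_complex
  have hidx : Nat.card X = Nat.card (X ⧸ N) * Nat.card N := (Subgroup.index_mul_card N).symm
  have hcN : (Nat.card N : ℂ) ≠ 0 := card_ne_zero_complex
  have hcQ : (Nat.card (X ⧸ N) : ℂ) ≠ 0 := Nat.cast_ne_zero.mpr Nat.card_pos.ne'
  have hT2 : ∑ γ, classInner (ξ * lam γ) ξ = ((e : ℂ)) ^ 2 := by
    have e1 : ∑ γ, classInner (ξ * lam γ) ξ =
        (Nat.card X : ℂ)⁻¹ * ∑ x : X, (∑ γ, lam γ x) * (ξ x * conj (ξ x)) := by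
      simp only [classInner, Pi.mul_apply]
      rw [← Finset.mul_sum, Finset.sum_comm]
      congr 1
      refine Finset.sum_congr rfl fun x _ => ?_
      rw [Finset.sum_mul]
      refine Finset.sum_congr rfl fun γ _ => ?_
      ring
    have e2 : ∑ x : X, (∑ γ, lam γ x) * (ξ x * conj (ξ x)) =
        ∑ n : N, (Nat.card (X ⧸ N) : ℂ) * (ξ n * conj (ξ n)) := by
      rw [MaxInd.sum_eq_sum_subgroup N]
      · refine Finset.sum_congr rfl fun n _ => ?_
        rw [hsumγ, if_pos n.2]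
      · intro x hx
        rw [hsumγ, if_neg hx, zero_mul]
    have e3 : ∑ n : N, (ξ n * conj (ξ n)) = (e : ℂ) ^ 2 * (Nat.card N : ℂ) := by
      have h1 : classInner ξ₀ ξ₀ = 1 := classInner_self_of_isIrr hξ₀
      have h2 : ∑ n : N, ξ₀ n * conj (ξ₀ n) = (Nat.card N : ℂ) := by
        unfold classInner at h1
        field_simp at h1
        exact h1
      calc ∑ n : N, (ξ n * conj (ξ n)) = ∑ n : N, (e : ℂ) ^ 2 * (ξ₀ n * conj (ξ₀ n)) := by
            refine Finset.sum_congr rfl fun n _ => ?_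
            rw [hres n, map_mul, Complex.conj_natCast]
            ring
        _ = _ := by rw [← Finset.mul_sum, h2]
    rw [e1, e2, ← Finset.mul_sum, e3, hidx]
    push_cast
    field_simp
  have hS : Nat.card S = e ^ 2 := by
    have h1 : (Nat.card S : ℂ) = ((e ^ 2 : ℕ) : ℂ) := by
      rw [← hT1, hT2]
      push_cast
      rfl
    exact Nat.cast_injective h1
  rw [← hS]
  have h2 := Subgroup.card_subgroup_dvd_card S
  rw [hcardΓ] at h2
  exact h2

/-- The relation between multiplicities along a chain. -/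
theorem restrict_rel {G : Type u} [Group G] [Fintype G] {T₀ T₁ : Subgroup G} [Fintype T₀] [Fintype T₁]
    (hle : T₀ ≤ T₁) {χ : G → ℂ} (h1 : χ 1 ≠ 0) {ξ₀ : T₀ → ℂ} {ξ₁ : T₁ → ℂ}
    (hξ₀ : IsIrrCharacter T₀ ξ₀) (hξ₁ : IsIrrCharacter T₁ ξ₁) {e₀ e₁ : ℕ}
    (h₀ : ∀ t : T₀, χ t = (e₀ : ℂ) * ξ₀ t) (h₁ : ∀ t : T₁, χ t = (e₁ : ℂ) * ξ₁ t) :
    ∃ c : ℕ, e₀ = e₁ * c ∧ ∀ t : T₀, ξ₁ ⟨t, hle t.2⟩ = (c : ℂ) * ξ₀ t := by
  have he₁ : (e₁ : ℂ) ≠ 0 := by
    intro h0
    apply h1
    have := h₁ 1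
    rw [h0, zero_mul] at this
    exact this
  let ξ' : T₀ → ℂ := ξ₁ ∘ Subgroup.inclusion hle
  have hξ'c : IsCharacter T₀ ξ' := isCharacter_comp _ (isCharacter_of_isIrrCharacter hξ₁)
  obtain ⟨c, hc⟩ := exists_nat_classInner hξ'c (isCharacter_of_isIrrCharacter hξ₀)
  have hpt : ∀ t : T₀, ξ' t = ((e₀ : ℂ) / e₁) * ξ₀ t := by
    intro t
    have h2 : χ t = (e₁ : ℂ) * ξ' t := h₁ (Subgroup.inclusion hle t)
    rw [h₀ t] at h2
    field_simp
    rw [h2]
    ring
  have hfun : ξ' = ((e₀ : ℂ) / e₁) • ξ₀ := by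
    funext t
    rw [hpt t]
    rfl
  have hval : ((e₀ : ℂ) / e₁) = c := by
    rw [← hc, hfun, classInner_smul_left, classInner_self_of_isIrr hξ₀, mul_one]
  refine ⟨c, ?_, fun t => ?_⟩
  · have h2 : (e₀ : ℂ) = e₁ * c := by
      rw [← hval]
      field_simp
    exact_mod_cast h2
  · have h2 := hpt t
    rw [hval] at h2
    exact h2

theorem comm_mem_sup {G : Type*} [Group G] (A S : Subgroup G) [hA : A.Normal] {x y : G}
    (hx : x ∈ A ⊔ S) (hy : y ∈ A ⊔ S) : ⁅x, y⁆ ∈ A ⊔ ⁅S, S⁆ := by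
  obtain ⟨a, ha, s, hs, rfl⟩ := Subgroup.mem_sup_of_normal_left.mp hx
  obtain ⟨b, hb, s', hs', rfl⟩ := Subgroup.mem_sup_of_normal_left.mp hy
  let q := QuotientGroup.mk' A
  have hqa : q a = 1 := (QuotientGroup.eq_one_iff a).mpr ha
  have hqb : q b = 1 := (QuotientGroup.eq_one_iff b).mpr hb
  have h1 : q ⁅a * s, b * s'⁆ = q ⁅s, s'⁆ := by
    rw [map_commutatorElement, map_commutatorElement, map_mul, map_mul, hqa, hqb, one_mul, one_mul]
  have h2 : ⁅s, s'⁆⁻¹ * ⁅a * s, b * s'⁆ ∈ A := QuotientGroup.eq.mp h1.symm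
  have h4 : ⁅a * s, b * s'⁆ = ⁅s, s'⁆ * (⁅s, s'⁆⁻¹ * ⁅a * s, b * s'⁆) := by group
  rw [h4, sup_comm]
  exact Subgroup.mul_mem_sup (Subgroup.commutator_mem_commutator hs hs') h2

/-- The multiplicity of a quasi-primitive character on a normal subgroup. -/
theorem chain {G : Type u} [Group G] [Fintype G] [Group.IsSolvable G] {χ : G → ℂ}
    (hχ : IsIrrCharacter G χ)
    (hqp : ∀ N : Subgroup G, N.Normal → ∃ (ϑ : N → ℂ) (e : ℕ), IsIrrCharacter N ϑ ∧
      (fun n : N => χ n) = (e : ℂ) • ϑ)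
    (A : Subgroup G) (hA : A.Normal) :
    ∃ (ϑ : A → ℂ) (a : ℕ), IsIrrCharacter A ϑ ∧ (∀ n : A, χ n = (a : ℂ) * ϑ n) ∧ a ^ 2 ∣ A.index := by
  classical
  have hχ1 : χ 1 ≠ 0 := irr_one_ne_zero hχ
  have key : ∀ (n : ℕ) (T : Subgroup G), T = A ⊔ derivedSeries G n →
      ∃ (ξ : T → ℂ) (e : ℕ), IsIrrCharacter T ξ ∧ (∀ t : T, χ t = (e : ℂ) * ξ t) ∧ e ^ 2 ∣ T.index := by
    intro n
    induction n with
    | zero =>
      intro T hT
      haveI hTn : T.Normal := by
        rw [hT]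
        haveI := hA
        exact Subgroup.sup_normal _ _
      obtain ⟨ϑ, e, hϑ, he⟩ := hqp T hTn
      have hres : ∀ t : T, χ t = (e : ℂ) * ϑ t := fun t => congrFun he t
      refine ⟨ϑ, e, hϑ, hres, ?_⟩
      refine sq_dvd_index T (fun x y => ?_) hχ hϑ hres
      rw [hT, derivedSeries_zero]
      exact (le_sup_right : (⊤ : Subgroup G) ≤ A ⊔ ⊤) trivial
    | succ n ih =>
      intro T hT
      obtain ⟨ξ, e, hξ, hχξ, hdvd⟩ := ih _ rfl
      set T' := A ⊔ derivedSeries G n with hT'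
      have hle : T ≤ T' := by
        rw [hT]
        apply sup_le_sup_left
        exact derivedSeries_antitone G (Nat.le_succ n)
      haveI hTn : T.Normal := by
        rw [hT]
        haveI := hA
        exact Subgroup.sup_normal _ _
      obtain ⟨ϑ, e', hϑ, he'⟩ := hqp T hTn
      have hres : ∀ t : T, χ t = (e' : ℂ) * ϑ t := fun t => congrFun he' t
      obtain ⟨c, hc, hcξ⟩ := restrict_rel hle hχ1 hϑ hξ hres hχξ
      refine ⟨ϑ, e', hϑ, hres, ?_⟩
      let N : Subgroup T' := T.subgroupOf T'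
      haveI hNn : N.Normal := hTn.subgroupOf T'
      let φ : N ≃* T := Subgroup.subgroupOfEquivOfLe hle
      have hφ : IsIrrCharacter N (ϑ ∘ φ) := isIrrCharacter_comp_mulEquiv φ hϑ
      have hcd : c ^ 2 ∣ N.index := by
        refine sq_dvd_index N (fun x y => ?_) hξ hφ (fun t => ?_)
        · rw [Subgroup.mem_subgroupOf]
          haveI := hA
          have h1 := comm_mem_sup A (derivedSeries G n) x.2 y.2
          rw [hT, derivedSeries_succ]
          exact h1
        · exact hcξ (φ t)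
      have hi : N.index * T'.index = T.index := Subgroup.relIndex_mul_index hle
      rw [← hi, hc, mul_pow, mul_comm]
      exact mul_dvd_mul hcd hdvd
  obtain ⟨n₀, hn₀⟩ := Group.IsSolvable.solvable (G := G)
  exact key n₀ A (by rw [hn₀, sup_bot_eq])

/-- `|G : H|` divides the multiplicity. -/
theorem mult_dvd {G : Type u} [Group G] [Fintype G] {H A : Subgroup G} [Fintype H] [Fintype A]
    (hAH : A ≤ H) (hA : A.Normal) {ψ : H → ℂ} (hψ : IsCharacter H ψ) {ϑ : A → ℂ}
    (hϑ : IsIrrCharacter A ϑ) {a : ℕ} (ha : a ≠ 0) (hχ : ∀ n : A, indFun H ψ n = (a : ℂ) * ϑ n) :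
    ∃ b : ℕ, a = H.index * b := by
  classical
  have hcl : IsClassFunction G (indFun H ψ) := isClassFunction_of_isCharacter (isCharacter_indFun H hψ)
  have ha' : (a : ℂ) ≠ 0 := Nat.cast_ne_zero.mpr ha
  let cj : G → A → A := fun g x => ⟨g⁻¹ * x * g, by
    have := hA.conj_mem x x.2 g⁻¹
    simpa using this⟩
  have hinv : ∀ (g : G) (x : A), ϑ (cj g x) = ϑ x := by
    intro g x
    have h1 := hχ (cj g x)
    have h2 := hχ x
    have h3 : indFun H ψ ((cj g x : A) : G) = indFun H ψ (x : G) := by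
      have := hcl (x : G) g⁻¹
      simpa [cj] using this
    rw [h1, h2] at h3
    exact mul_left_cancel₀ ha' h3
  let ψA : A → ℂ := ψ ∘ Subgroup.inclusion hAH
  have hψA : IsCharacter A ψA := isCharacter_comp _ hψ
  obtain ⟨b, hb⟩ := exists_nat_classInner hψA (isCharacter_of_isIrrCharacter hϑ)
  refine ⟨b, ?_⟩
  have hcA : (Nat.card A : ℂ) ≠ 0 := card_ne_zero_complex
  have hcH : (Nat.card H : ℂ) ≠ 0 := card_ne_zero_complex
  have hcG : Nat.card G = H.index * Nat.card H := (Subgroup.index_mul_card H).symm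
  -- first description of `a`
  have h1 : (a : ℂ) = (Nat.card A : ℂ)⁻¹ * ∑ x : A, indFun H ψ x * conj (ϑ x) := by
    have h2 : classInner ϑ ϑ = 1 := classInner_self_of_isIrr hϑ
    unfold classInner at h2
    calc (a : ℂ) = (a : ℂ) * ((Nat.card A : ℂ)⁻¹ * ∑ x : A, ϑ x * conj (ϑ x)) := by rw [h2, mul_one]
      _ = _ := by
        rw [mul_left_comm, Finset.mul_sum]
        congr 1
        refine Finset.sum_congr rfl fun x _ => ?_
        rw [hχ x]
        ring
  -- the inner sum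
  have hval : ∀ (g : G) (x : A), extendByZero H ψ (g⁻¹ * x * g) = ψA (cj g x) := by
    intro g x
    have hmem : g⁻¹ * (x : G) * g ∈ H := hAH (cj g x).2
    rw [extendByZero_of_mem H _ hmem]
    rfl
  have hinner : ∀ g : G, ∑ x : A, extendByZero H ψ (g⁻¹ * x * g) * conj (ϑ x) =
      (Nat.card A : ℂ) * (b : ℂ) := by
    intro g
    let e : A ≃ A :=
      { toFun := cj g
        invFun := cj g⁻¹
        left_inv := fun x => Subtype.ext (by simp [cj, mul_assoc])
        right_inv := fun x => Subtype.ext (by simp [cj, mul_assoc]) }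
    have h3 : ∑ x : A, extendByZero H ψ (g⁻¹ * x * g) * conj (ϑ x) = ∑ x : A, ψA x * conj (ϑ x) := by
      refine Fintype.sum_equiv e _ _ fun x => ?_
      rw [hval, ← hinv g x]
      rfl
    rw [h3]
    have h4 : classInner ψA ϑ = (b : ℂ) := hb
    unfold classInner at h4
    rw [← h4, ← mul_assoc, mul_inv_cancel₀ hcA, one_mul]
  have h5 : (a : ℂ) = ((H.index * b : ℕ) : ℂ) := by
    rw [h1]
    simp only [indFun_apply]
    have h6 : ∑ x : A, (Nat.card H : ℂ)⁻¹ * (∑ g : G, extendByZero H ψ (g⁻¹ * x * g)) * conj (ϑ x) =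
        (Nat.card H : ℂ)⁻¹ * ∑ g : G, ∑ x : A, extendByZero H ψ (g⁻¹ * x * g) * conj (ϑ x) := by
      rw [Finset.sum_comm, Finset.mul_sum]
      refine Finset.sum_congr rfl fun x _ => ?_
      rw [mul_assoc, Finset.sum_mul]
    rw [h6]
    simp only [hinner, Finset.sum_const, Finset.card_univ, nsmul_eq_mul, ← Nat.card_eq_fintype_card]
    rw [hcG]
    push_cast
    field_simp
  exact_mod_cast h5

/-- The cardinality of the image in a quotient. -/
theorem card_map_mk {G : Type*} [Group G] (A : Subgroup G) [A.Normal] (T : Subgroup G) :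
    Nat.card (T.map (QuotientGroup.mk' A)) = A.relIndex T := by
  let f : T →* (G ⧸ A) := (QuotientGroup.mk' A).comp T.subtype
  have hr1 : f.range = T.map (QuotientGroup.mk' A) := by
    rw [MonoidHom.range_comp, Subgroup.range_subtype]
  have hk1 : f.ker = A.subgroupOf T := by
    ext z
    rw [MonoidHom.mem_ker, Subgroup.mem_subgroupOf]
    exact QuotientGroup.eq_one_iff _
  have h1 := Subgroup.index_ker f
  rw [hk1, hr1] at h1
  exact h1.symm

/-- **Berger's theorem**: a quasi-primitive irreducible character of a solvable group is primitive. -/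
theorem berger {G : Type u} [Group G] [Fintype G] [Group.IsSolvable G] {χ : G → ℂ}
    (hχ : IsIrrCharacter G χ)
    (hqp : ∀ N : Subgroup G, N.Normal → ∃ (ϑ : N → ℂ) (e : ℕ), IsIrrCharacter N ϑ ∧
      (fun n : N => χ n) = (e : ℂ) • ϑ)
    (K : Subgroup G) (hK : K ≠ ⊤) (ψ : K → ℂ) (hψ : IsCharacter K ψ) : indFun K ψ ≠ χ := by
  classical
  intro hind
  -- a maximal subgroup above `K`
  obtain ⟨H, hKH, hHmax⟩ := Finite.exists_le_maximal (p := fun X : Subgroup G => X ≠ ⊤) hK
  have hHne : H ≠ ⊤ := hHmax.prop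
  have hHm : ∀ X : Subgroup G, H ≤ X → X ≠ ⊤ → X ≤ H := fun X hX hne => hHmax.le_of_ge hne hX
  let ψ₁ : H → ℂ := indFun (K.subgroupOf H) (fun x => ψ ⟨(x : H), Subgroup.mem_subgroupOf.mp x.2⟩)
  have hψ₁ : IsCharacter H ψ₁ := by
    apply isCharacter_indFun
    exact isCharacter_comp (Subgroup.subgroupOfEquivOfLe hKH).toMonoidHom hψ
  have hind₁ : indFun H ψ₁ = χ := by
    rw [← hind]
    exact indFun_indFun K H hKH ψ
  -- the core
  let A : Subgroup G := H.normalCore
  haveI hAn : A.Normal := Subgroup.normalCore_normal H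
  have hAH : A ≤ H := Subgroup.normalCore_le H
  have hAcore : ∀ M : Subgroup G, M.Normal → M ≤ H → M ≤ A := by
    intro M hM hMH
    haveI := hM
    exact Subgroup.normal_le_normalCore.mpr hMH
  have hAne : A ≠ ⊤ := fun h => hHne (top_le_iff.mp (h ▸ hAH))
  obtain ⟨ϑ, a, hϑ, hχa, hadvd⟩ := chain hχ hqp A hAn
  have ha0 : a ≠ 0 := by
    rintro rfl
    have h1 := hχa 1
    rw [Nat.cast_zero, zero_mul] at h1
    exact irr_one_ne_zero hχ h1
  obtain ⟨b, hb⟩ := mult_dvd hAH hAn hψ₁ hϑ ha0 (by rw [hind₁]; exact hχa)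
  -- a chief factor above `A`
  obtain ⟨D, p, hDn, hAD, hcm, hp, hpow, ⟨c, hc0, hidx⟩, hchief⟩ := exists_chief_above A hAne
  haveI : Fact p.Prime := ⟨hp⟩
  haveI := hDn
  have hDH : ¬ D ≤ H := fun h => absurd (hAcore D hDn h) (not_le_of_gt hAD)
  have hsup : H ⊔ D = ⊤ := by
    by_contra h
    exact hDH (le_sup_right.trans (hHm _ le_sup_left h))
  have hsupmem : ∀ g : G, ∃ h ∈ H, ∃ d ∈ D, h * d = g := by
    intro g
    have : g ∈ H ⊔ D := by rw [hsup]; trivial
    exact Subgroup.mem_sup_of_normal_right.mp this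
  have hinf : H ⊓ D = A := by
    apply le_antisymm _ (le_inf hAH hAD.le)
    apply hAcore _ _ inf_le_left
    constructor
    rintro m ⟨hm1, hm2⟩ g
    obtain ⟨h, hh, d, hd, rfl⟩ := hsupmem g
    -- conjugating by `d` stays inside `H ⊓ D`
    have h1 : d * m * d⁻¹ * m⁻¹ ∈ A := hcm d hd m hm2
    have h2 : d * m * d⁻¹ ∈ H := by
      have h3 := H.mul_mem (hAH h1) hm1
      simpa using h3
    have e : h * d * m * (h * d)⁻¹ = h * (d * m * d⁻¹) * h⁻¹ := by group
    rw [e]
    refine ⟨H.mul_mem (H.mul_mem hh h2) (H.inv_mem hh), ?_⟩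
    exact hDn.conj_mem _ (hDn.conj_mem m hm2 d) h
  -- the numbers
  have hv : H.index = A.relIndex D := by
    have h1 := MaxInd.card_formula H D
    rw [hsup, Subgroup.index_top, one_mul, hinf] at h1
    have h2 : H.index * Nat.card H = Nat.card G := Subgroup.index_mul_card H
    have h3 : A.relIndex D * Nat.card (A.subgroupOf D) = Nat.card D := Subgroup.index_mul_card _
    have h4 : Nat.card (A.subgroupOf D) = Nat.card A :=
      Nat.card_congr (Subgroup.subgroupOfEquivOfLe hAD.le).toEquiv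
    rw [h4] at h3
    have hA0 : 0 < Nat.card A := Nat.card_pos
    have hH0 : 0 < Nat.card H := Nat.card_pos
    rw [← h2, ← h3] at h1
    have h5 : (A.relIndex D) * (Nat.card H * Nat.card A) = H.index * (Nat.card H * Nat.card A) := by
      linarith [h1]
    exact (Nat.eq_of_mul_eq_mul_right (Nat.mul_pos hH0 hA0) h5).symm
  -- the quotient
  let q := QuotientGroup.mk' A
  have hqs : Function.Surjective q := QuotientGroup.mk'_surjective _
  have hq1 : ∀ z, q z = 1 ↔ z ∈ A := fun z => QuotientGroup.eq_one_iff z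
  let Db : Subgroup (G ⧸ A) := D.map q
  let Hb : Subgroup (G ⧸ A) := H.map q
  haveI hDbn : Db.Normal := hDn.map q hqs
  have hcardDb : Nat.card Db = p ^ c := by rw [← hidx]; exact card_map_mk A D
  have hcardHb : Nat.card Hb = A.relIndex H := card_map_mk A H
  have hcomp := complement_bound (G := G ⧸ A) (H := Hb) (V := Db) (by
      rintro _ ⟨x, hx, rfl⟩ _ ⟨y, hy, rfl⟩
      have h1 : q ⁅x, y⁆ = 1 := (hq1 _).mpr (hcm x hx y hy)
      rw [map_commutatorElement] at h1
      exact commutatorElement_eq_one_iff_mul_comm.mp h1) p (by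
      rintro _ ⟨x, hx, rfl⟩
      rw [← map_pow]
      exact (hq1 _).mpr (hpow x hx)) (by
      intro hb0
      obtain ⟨x, hx, hxA⟩ := SetLike.exists_of_lt hAD
      have h1 : q x ∈ Db := ⟨x, hx, rfl⟩
      rw [hb0, Subgroup.mem_bot] at h1
      exact hxA ((hq1 x).mp h1)) (by
      intro X hX hXD
      have hn : (X.comap q).Normal := hX.comap q
      have hAle : A ≤ X.comap q := by
        intro z hz
        rw [Subgroup.mem_comap, (hq1 z).mpr hz]
        exact X.one_mem
      have hleD : X.comap q ≤ D := by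
        intro z hz
        obtain ⟨k, hk, hkz⟩ := hXD hz
        have h1 : k⁻¹ * z ∈ A := QuotientGroup.eq.mp hkz
        have h2 := D.mul_mem hk (hAD.le h1)
        simpa using h2
      rcases hchief _ hn hAle hleD with h | h
      · left
        rw [eq_bot_iff]
        intro y hy
        obtain ⟨z, rfl⟩ := hqs y
        have h1 : z ∈ X.comap q := hy
        rw [h] at h1
        rw [Subgroup.mem_bot]
        exact (hq1 z).mpr h1
      · right
        apply le_antisymm hXD
        rintro _ ⟨z, hz, rfl⟩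
        rw [← h] at hz
        exact hz) (by
      rw [← Subgroup.map_sup, hsup, ← MonoidHom.range_eq_map, MonoidHom.range_eq_top]
      exact hqs) (by
      intro M hM hMH
      have hn : (M.comap q).Normal := hM.comap q
      have hle : M.comap q ≤ H := by
        intro z hz
        obtain ⟨k, hk, hkz⟩ := hMH hz
        have h1 : k⁻¹ * z ∈ A := QuotientGroup.eq.mp hkz
        have h2 := H.mul_mem hk (hAH h1)
        simpa using h2
      have h3 := hAcore _ hn hle
      rw [eq_bot_iff]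
      intro y hy
      obtain ⟨z, rfl⟩ := hqs y
      rw [Subgroup.mem_bot]
      exact (hq1 z).mpr (h3 hy))
  rw [hcardDb, hcardHb] at hcomp
  -- arithmetic
  set m := A.relIndex H with hm
  have hv' : H.index = p ^ c := by rw [hv, hidx]
  have hindex : m * H.index = A.index := Subgroup.relIndex_mul_index hAH
  have hb0 : b ≠ 0 := by
    rintro rfl
    exact ha0 (by rw [hb, mul_zero])
  have hpc : 0 < p ^ c := pow_pos hp.pos c
  have hdvd : p ^ c ∣ m := by
    have h1 : a ^ 2 ∣ m * p ^ c := by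
      rw [← hv', hindex]
      exact hadvd
    rw [hb, hv', mul_pow] at h1
    have h2 : (p ^ c) ^ 2 = p ^ c * p ^ c := by ring
    rw [h2, mul_assoc] at h1
    have h3 : p ^ c * (p ^ c * b ^ 2) ∣ p ^ c * m := by
      rwa [mul_comm m] at h1
    have h4 := Nat.dvd_of_mul_dvd_mul_left hpc h3
    exact (dvd_mul_right _ _).trans h4
  have hm0 : m ≠ 0 := by
    intro h0
    have h1 : A.index ≠ 0 := Subgroup.index_ne_zero_of_finite
    rw [← hindex, h0, zero_mul] at h1
    exact h1 rfl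
  have hle : p ^ c ≤ ordProj[p] m := by
    have h1 := (Nat.Prime.pow_dvd_iff_le_factorization hp hm0).mp hdvd
    exact Nat.pow_le_pow_right hp.pos h1
  have h2 := hp.two_le
  nlinarith

end Cfsg.Agent.Lib.CharDeep.PartBound
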