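import Cfsg.Agent.Lib.CharDeep.PartBound.Irr

/-!
# Irreducible faithful actions: first cases

`IrrData p R ρ`: `W` is a faithful irreducible module for `R` and `E`.
* `IrrData.inv`: `R` is a field.
* `IrrData.pCore_eq_bot`: `O_p(E) = 1`.
* `Zs`: the scalars. `caseA`, `caseB`: the theorem when `E` consists of scalars or if an abelian
  normal subgroup is not scalar.
-/

set_option autoImplicit false
set_option linter.unusedSectionVars false

namespace Cfsg.Agent.Lib.CharDeep.PartBound

open Cfsg Cfsg.Agent.Lib.Core.Basic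

universe u v

section

variable {E : Type u} [Group E] {W : Type v} [AddCommGroup W]
  {R : Subring (AddMonoid.End W)} {ρ : E →* AddMonoid.End W}

theorem nat_card_lt_of_injective {α β : Type*} [Finite α] [Finite β] (f : α → β)
    (hf : Function.Injective f) (hs : ¬ Function.Surjective f) : Nat.card α < Nat.card β := by
  classical
  letI := Fintype.ofFinite α
  letI := Fintype.ofFinite β
  rw [Nat.card_eq_fintype_card, Nat.card_eq_fintype_card]
  exact Fintype.card_lt_of_injective_not_surjective f hf hs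

/-- Faithful irreducible action. -/
structure IrrData (p : ℕ) (R : Subring (AddMonoid.End W)) (ρ : E →* AddMonoid.End W) : Prop where
  tors : ∀ w : W, p • w = 0
  good : Good R
  comm : ∀ g, ∀ a ∈ R, ρ g * a = a * ρ g
  faith : Function.Injective ρ
  irr : ∀ U : AddSubgroup W, (∀ a ∈ R, ∀ x ∈ U, a x ∈ U) → (∀ g, ∀ x ∈ U, ρ g x ∈ U) → U = ⊥ ∨ U = ⊤

theorem rho_mul_inv (ρ : E →* AddMonoid.End W) (g : E) : ρ g * ρ g⁻¹ = 1 := by
  rw [← map_mul]; simp

theorem rho_inv_mul (ρ : E →* AddMonoid.End W) (g : E) : ρ g⁻¹ * ρ g = 1 := by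
  rw [← map_mul]; simp

variable {p : ℕ}

theorem Concl.mono {R L : Subring (AddMonoid.End W)} (hRL : R ≤ L) (h : Concl p L ρ) [Finite W] :
    Concl p R ρ := by
  haveI := finite_end (W := W)
  obtain ⟨N, h1, h2, h3⟩ := h
  refine ⟨N, h1, h2, le_trans (Nat.mul_le_mul_right _ ?_) h3⟩
  exact Nat.card_le_card_of_injective (Subring.inclusion hRL) (Subring.inclusion_injective hRL)

theorem IrrData.inv [Finite W] [Nontrivial W] (h : IrrData p R ρ) :
    ∀ a ∈ R, a ≠ 0 → ∃ b ∈ R, a * b = 1 := by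
  intro a ha ha0
  obtain ⟨t, ht1, ht⟩ := h.good.exists_pow ha
  set ε := a ^ t with hε
  have hεR : ε ∈ R := R.pow_mem ha t
  have hidem : ε * ε = ε := by
    have e : a ^ t * a ^ t = a ^ (t - 1) * a ^ (t + 1) := by
      rw [← pow_add, ← pow_add]
      congr 1
      omega
    rw [hε, e, ht, ← pow_succ]
    congr 1
    omega
  let U : AddSubgroup W := AddMonoidHom.range (ε : W →+ W)
  have hmem : ∀ x, x ∈ U ↔ ∃ y, ε y = x := fun x => Iff.rfl
  have hU := h.irr U (by
    rintro r hr x hx
    obtain ⟨y, rfl⟩ := (hmem x).mp hx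
    refine (hmem _).mpr ⟨r y, ?_⟩
    exact (DFunLike.congr_fun (h.good.comm ε hεR r hr) y)) (by
    rintro g x hx
    obtain ⟨y, rfl⟩ := (hmem x).mp hx
    refine (hmem _).mpr ⟨ρ g y, ?_⟩
    exact (DFunLike.congr_fun (h.comm g ε hεR) y).symm)
  have hε0 : ε ≠ 0 := by
    intro h0
    apply ha0
    rw [← ht, pow_succ, ← hε, h0, zero_mul]
  rcases hU with hU | hU
  · exfalso
    apply hε0
    refine DFunLike.ext _ _ fun y => ?_
    have : ε y ∈ U := (hmem _).mpr ⟨y, rfl⟩
    rw [hU] at this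
    exact (AddSubgroup.mem_bot.mp this)
  · have hε1 : ε = 1 := by
      refine DFunLike.ext _ _ fun x => ?_
      have : x ∈ U := by rw [hU]; trivial
      obtain ⟨y, rfl⟩ := (hmem x).mp this
      exact DFunLike.congr_fun hidem y
    refine ⟨a ^ (t - 1), R.pow_mem ha _, ?_⟩
    rw [← hε1, hε, ← pow_succ']
    congr 1
    omega

variable [Finite E] [Finite W] [Nontrivial W] [Fact p.Prime]

theorem IrrData.pCore_eq_bot (h : IrrData p R ρ) : pCore p E = ⊥ := by
  have hpg : IsPGroup p (pCore p E) := pCore_isPGroup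
  have hn : (pCore p E).Normal := pCore_normal p E
  let U : AddSubgroup W :=
    { carrier := {x | ∀ n ∈ pCore p E, ρ n x = x}
      zero_mem' := fun n _ => map_zero (ρ n)
      add_mem' := fun {a b} ha hb n hn' => by rw [map_add, ha n hn', hb n hn']
      neg_mem' := fun {a} ha n hn' => by rw [map_neg, ha n hn'] }
  have hmem : ∀ x, x ∈ U ↔ ∀ n ∈ pCore p E, ρ n x = x := fun x => Iff.rfl
  have hU := h.irr U (by
    intro r hr x hx
    rw [hmem] at hx ⊢
    intro n hn'
    have := DFunLike.congr_fun (h.comm n r hr) x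
    have e : ρ n (r x) = r (ρ n x) := this
    rw [e, hx n hn']) (by
    intro g x hx
    rw [hmem] at hx ⊢
    intro n hn'
    have h1 := hx _ (hn.conj_mem n hn' g⁻¹)
    have e : ρ n (ρ g x) = ρ g (ρ (g⁻¹ * n * g⁻¹⁻¹) x) := by
      have : ρ g * ρ (g⁻¹ * n * g⁻¹⁻¹) = ρ n * ρ g := by
        rw [← map_mul, ← map_mul]
        congr 1
        group
      exact (DFunLike.congr_fun this x).symm
    rw [e, h1])
  rcases hU with hU | hU
  · exfalso
    letI : MulAction (pCore p E) W := MulAction.compHom W (ρ.comp (pCore p E).subtype)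
    have hsm : ∀ (n : pCore p E) (x : W), n • x = ρ n.1 x := fun _ _ => rfl
    have h0 : (0 : W) ∈ MulAction.fixedPoints (pCore p E) W := by
      intro n
      rw [hsm, map_zero]
    obtain ⟨b, hb, hb0⟩ := hpg.exists_fixed_point_of_prime_dvd_card_of_fixed_point W
      (p_dvd_card_add h.tors) h0
    have hbU : b ∈ U := fun n hn' => hb ⟨n, hn'⟩
    rw [hU] at hbU
    exact hb0 (AddSubgroup.mem_bot.mp hbU).symm
  · rw [eq_bot_iff]
    intro n hn'
    rw [Subgroup.mem_bot]
    apply h.faith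
    rw [map_one]
    refine DFunLike.ext _ _ fun x => ?_
    have : x ∈ U := by rw [hU]; trivial
    exact this n hn'

omit [Finite W] [Nontrivial W] in
theorem normal_p_trivial (hOp : pCore p E = ⊥) {C : Subgroup E} (hC : C.Normal) {N₀ : Subgroup C}
    (hN₀ : N₀.Normal) (hpN : IsPGroup p N₀) : N₀ = ⊥ := by
  have h1 : N₀ ≤ pCore p C := le_pCore hN₀ hpN
  have h2 : (pCore p C).map C.subtype ≤ pCore p E :=
    map_pCore_le_of_isSubnormal (Subgroup.Normal.isSubnormal hC)
  rw [hOp] at h2
  rw [eq_bot_iff]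
  intro x hx
  have h3 : (x : E) ∈ (pCore p C).map C.subtype := ⟨x, h1 hx, rfl⟩
  have h4 := h2 h3
  rw [Subgroup.mem_bot] at h4 ⊢
  exact Subtype.ext h4

omit [Finite W] [Nontrivial W] in
theorem not_dvd_of_normal_sylow (hOp : pCore p E = ⊥) {M : Subgroup E} (hM : M.Normal)
    (hS : ∀ S : Sylow p M, (S : Subgroup M).Normal) : ¬ p ∣ Nat.card M := by
  have hp : p.Prime := Fact.out
  obtain ⟨S⟩ : Nonempty (Sylow p M) := inferInstance
  have h1 : (S : Subgroup M) = ⊥ := normal_p_trivial hOp hM (hS S) S.isPGroup'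
  have h2 := S.card_eq_multiplicity
  rw [h1, Subgroup.card_bot] at h2
  intro hd
  have h3 : (Nat.card M).factorization p ≠ 0 :=
    (hp.factorization_pos_of_dvd Nat.card_pos.ne' hd).ne'
  have h4 : p ^ (Nat.card M).factorization p ≠ 1 := (Nat.one_lt_pow h3 hp.one_lt).ne'
  exact h4 h2.symm

omit [Finite E] [Finite W] [Nontrivial W] [Fact p.Prime] in
theorem sylow_normal_of_comm {M : Subgroup E} (hc : ∀ x ∈ M, ∀ y ∈ M, x * y = y * x)
    (S : Subgroup M) : S.Normal := by
  refine ⟨fun x hx g => ?_⟩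
  have : g * x * g⁻¹ = x := by
    apply Subtype.ext
    show (g : E) * x * (g : E)⁻¹ = x
    rw [hc _ g.2 _ x.2, mul_assoc, mul_inv_cancel, mul_one]
  rwa [this]

omit [Finite E] [Finite W] [Fact p.Prime] in
theorem end_one_ne_zero : (1 : AddMonoid.End W) ≠ 0 := by
  intro h1
  obtain ⟨x, hx⟩ := exists_ne (0 : W)
  exact hx (DFunLike.congr_fun h1 x)

/-- The scalar elements. -/
def Zs (h : IrrData p R ρ) : Subgroup E where
  carrier := {g | ρ g ∈ R}
  one_mem' := by
    rw [Set.mem_setOf, map_one]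
    exact R.one_mem
  mul_mem' := fun {a b} ha hb => by
    rw [Set.mem_setOf, map_mul]
    exact R.mul_mem ha hb
  inv_mem' := fun {g} hg => by
    have hne : ρ g ≠ 0 := by
      intro h0
      have := rho_mul_inv ρ g
      rw [h0, zero_mul] at this
      exact end_one_ne_zero this.symm
    obtain ⟨b, hb, hgb⟩ := h.inv (ρ g) hg hne
    have e : ρ g⁻¹ = b := by
      calc ρ g⁻¹ = ρ g⁻¹ * (ρ g * b) := by rw [hgb, mul_one]
        _ = b := by rw [← mul_assoc, rho_inv_mul, one_mul]
    rw [Set.mem_setOf, e]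
    exact hb

theorem mem_Zs (h : IrrData p R ρ) {g : E} : g ∈ Zs h ↔ ρ g ∈ R := Iff.rfl

theorem Zs_central (h : IrrData p R ρ) {g : E} (hg : g ∈ Zs h) (x : E) : x * g = g * x := by
  apply h.faith
  rw [map_mul, map_mul]
  exact h.comm x (ρ g) hg

theorem Zs_normal (h : IrrData p R ρ) : (Zs h).Normal := by
  refine ⟨fun g hg x => ?_⟩
  rw [Zs_central h hg x, mul_assoc, mul_inv_cancel, mul_one]
  exact hg

theorem Zs_comm (h : IrrData p R ρ) : ∀ x ∈ Zs h, ∀ y ∈ Zs h, x * y = y * x :=
  fun _ _ y hy => (Zs_central h hy _)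

theorem card_R_le (h : IrrData p R ρ) : Nat.card R ≤ Nat.card W := by
  classical
  obtain ⟨w, hw⟩ := exists_ne (0 : W)
  apply Nat.card_le_card_of_injective (fun a : R => a.1 w)
  intro a b hab
  by_contra hne
  have hc : a.1 - b.1 ≠ 0 := fun h0 => hne (Subtype.ext (sub_eq_zero.mp h0))
  obtain ⟨d, hd, hcd⟩ := h.inv _ (R.sub_mem a.2 b.2) hc
  have h1 : (a.1 - b.1) w = 0 := by
    show a.1 w - b.1 w = 0
    exact sub_eq_zero.mpr hab
  have h2 : (d * (a.1 - b.1)) w = 0 := by
    rw [end_mul_apply, h1, map_zero]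
  rw [← h.good.comm _ (R.sub_mem a.2 b.2) _ hd, hcd] at h2
  exact hw h2

omit [Finite E] in
theorem p_le_card_R (hW : ∀ w : W, p • w = 0) : p ≤ Nat.card R := by
  haveI := finite_end (W := W)
  haveI : Nontrivial R := by
    refine ⟨0, 1, fun h0 => ?_⟩
    exact end_one_ne_zero (congrArg Subtype.val h0).symm
  have h1 : ∀ r : R, p • r = 0 := by
    intro r
    apply Subtype.ext
    refine DFunLike.ext _ _ fun w => ?_
    show p • (r.1 w) = 0
    exact hW _
  exact Nat.le_of_dvd Nat.card_pos (p_dvd_card_add h1)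

/-- All elements are scalars. -/
theorem caseA (h : IrrData p R ρ) (hZ : Zs h = ⊤) : Concl p R ρ := by
  have hOp := h.pCore_eq_bot
  have hnd : ¬ p ∣ Nat.card (Zs h) :=
    not_dvd_of_normal_sylow hOp (Zs_normal h) (fun S => sylow_normal_of_comm (Zs_comm h) _)
  rw [hZ, Subgroup.card_top] at hnd
  refine ⟨⊥, Subgroup.normal_bot, ?_, ?_⟩
  · intro n hn
    rw [Subgroup.mem_bot] at hn
    exact ⟨0, by simp [hn]⟩
  · rw [Subgroup.index_bot, Nat.factorization_eq_zero_of_not_dvd hnd, pow_zero, mul_one]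
    exact card_R_le h

theorem adj_conj_mem (h : IrrData p R ρ) {B : Subgroup E} (hB : B.Normal) (g : E) :
    ∀ a ∈ adjS R ρ B, ρ g * a * ρ g⁻¹ ∈ adjS R ρ B := by
  intro a ha
  induction ha using Subring.closure_induction with
  | mem x hx =>
    rcases hx with hx | ⟨b, hb, rfl⟩
    · rw [h.comm g x hx, mul_assoc, rho_mul_inv, mul_one]
      exact le_adjS hx
    · rw [← map_mul, ← map_mul]
      exact map_mem_adjS (hB.conj_mem b hb g)
  | zero =>
    rw [mul_zero, zero_mul]
    exact Subring.zero_mem _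
  | one =>
    rw [mul_one, rho_mul_inv]
    exact Subring.one_mem _
  | add x y _ _ hx hy =>
    rw [mul_add, add_mul]
    exact Subring.add_mem _ hx hy
  | neg x _ hx =>
    rw [mul_neg, neg_mul]
    exact Subring.neg_mem _ hx
  | mul x y _ _ hx hy =>
    have : ρ g * (x * y) * ρ g⁻¹ = (ρ g * x * ρ g⁻¹) * (ρ g * y * ρ g⁻¹) := by
      calc ρ g * (x * y) * ρ g⁻¹ = ρ g * x * 1 * (y * ρ g⁻¹) := by noncomm_ring
        _ = ρ g * x * (ρ g⁻¹ * ρ g) * (y * ρ g⁻¹) := by rw [rho_inv_mul]
        _ = _ := by noncomm_ring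
    rw [this]
    exact Subring.mul_mem _ hx hy

/-- An abelian normal subgroup which is not scalar. -/
theorem caseB [Group.IsSolvable E] (h : IrrData p R ρ)
    (hOuter : ∀ (E' : Type u) [Group E'] [Finite E'] [Group.IsSolvable E'],
      Nat.card E' < Nat.card E → Red.{u, v} p E')
    (hInner : ∀ R' : Subring (AddMonoid.End W), Good R' → (∀ g, ∀ a ∈ R', ρ g * a = a * ρ g) →
      Nat.card R < Nat.card R' → Concl p R' ρ)
    {B : Subgroup E} (hBn : B.Normal) (hBc : ∀ x ∈ B, ∀ y ∈ B, x * y = y * x)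
    (hBZ : ¬ B ≤ Zs h) : Concl p R ρ := by
  classical
  haveI := finite_end (W := W)
  have hOp := h.pCore_eq_bot
  have hcop : ¬ p ∣ Nat.card B :=
    not_dvd_of_normal_sylow hOp hBn (fun S => sylow_normal_of_comm hBc _)
  have hL : Good (adjS R ρ B) := good_adj h.good h.inv h.tors h.comm hBc hcop
  have hRL : R ≤ adjS R ρ B := le_adjS
  obtain ⟨b, hbB, hbZ⟩ := Set.not_subset.mp hBZ
  have hlt : Nat.card R < Nat.card (adjS R ρ B) := by
    apply nat_card_lt_of_injective (Subring.inclusion hRL)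
      (Subring.inclusion_injective hRL)
    intro hs
    obtain ⟨r, hr⟩ := hs ⟨ρ b, map_mem_adjS hbB⟩
    apply hbZ
    have : r.1 = ρ b := congrArg Subtype.val hr
    show ρ b ∈ R
    rw [← this]
    exact r.2
  haveI hCn : (Subgroup.centralizer (B : Set E)).Normal := by
    haveI := hBn
    exact Subgroup.normal_centralizer
  by_cases hC : Subgroup.centralizer (B : Set E) = ⊤
  · -- everything commutes with `B`
    have hcomm : ∀ g, ∀ a ∈ adjS R ρ B, ρ g * a = a * ρ g := by
      intro g a ha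
      refine adj_comm_of (h.comm g) (fun c hc => ?_) ha
      have : g ∈ Subgroup.centralizer (B : Set E) := by rw [hC]; trivial
      rw [Subgroup.mem_centralizer_iff] at this
      rw [← map_mul, ← map_mul, this c hc]
    exact (hInner _ hL hcomm hlt).mono hRL
  · set C := Subgroup.centralizer (B : Set E) with hCdef
    have hcardC : Nat.card C < Nat.card E := by
      have h1 := Subgroup.card_mul_index C
      have h2 : C.index ≠ 1 := fun h3 => hC (Subgroup.index_eq_one.mp h3)
      have h3 : C.index ≠ 0 := Subgroup.index_ne_zero_of_finite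
      have h4 : 0 < Nat.card C := Nat.card_pos
      rw [← h1]
      have h5 : 2 ≤ C.index := by omega
      nlinarith
    have hcommC : ∀ g : C, ∀ a ∈ adjS R ρ B, (ρ.comp C.subtype) g * a = a * (ρ.comp C.subtype) g := by
      intro g a ha
      refine adj_comm_of (h.comm g.1) (fun c hc => ?_) ha
      have := Subgroup.mem_centralizer_iff.mp g.2
      rw [← map_mul, ← map_mul, this c hc]
    obtain ⟨N₀, hN₀, hu, hbd⟩ := hOuter C hcardC W h.tors _ hL (ρ.comp C.subtype) hcommC
    have hN₀p : IsPGroup p N₀ := by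
      intro n
      obtain ⟨k, hk⟩ := hu n.1 n.2
      refine ⟨k, ?_⟩
      apply Subtype.ext
      apply Subtype.ext
      apply h.faith
      simpa using hk
    have hN₀b : N₀ = ⊥ := normal_p_trivial hOp hCn hN₀ hN₀p
    rw [hN₀b, Subgroup.index_bot] at hbd
    have hperm := perm_bound_sub hRL hL h.inv h.tors ρ h.comm (adj_conj_mem h hBn) C (by
      intro g hg
      rw [hCdef, Subgroup.mem_centralizer_iff]
      intro c hc
      have h1 := hg (ρ c) (map_mem_adjS hc)
      rw [← map_mul, ← map_mul] at h1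
      have h2 := h.faith h1
      calc c * g = g * c * g⁻¹ * g := by rw [h2]
        _ = g * c := by group)
    refine ⟨⊥, Subgroup.normal_bot, ?_, ?_⟩
    · intro n hn
      rw [Subgroup.mem_bot] at hn
      exact ⟨0, by simp [hn]⟩
    · rw [Subgroup.index_bot]
      have hE : Nat.card E = C.index * Nat.card C := (Subgroup.index_mul_card C).symm
      have h0 : C.index ≠ 0 := Subgroup.index_ne_zero_of_finite
      have h00 : Nat.card C ≠ 0 := Nat.card_pos.ne'
      rw [hE, Nat.ordProj_mul p h0 h00, ← mul_assoc]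
      exact (Nat.mul_le_mul_right _ hperm).trans hbd

end

end Cfsg.Agent.Lib.CharDeep.PartBound
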