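import Mathlib

/-!
# Numeric bound for the `p`-part of `|GL_d(r)|`

`gl_part_le`: if `p ≠ r` are primes, `d ≤ 2 n`, `n ≥ 1`, `q ≥ p` and `q ≥ r + 1`, then the `p`-part of
`∏ (r ^ d - r ^ i)` is at most `q ^ (r ^ n - 1)`.
-/

set_option autoImplicit false

namespace Cfsg.Agent.Lib.CharDeep.PartBound

/-- `∏_{i=1}^d (r^i - 1)`. -/
def prodN (r d : ℕ) : ℕ := ∏ i ∈ Finset.range d, (r ^ (i + 1) - 1)

theorem prodN_succ (r d : ℕ) : prodN r (d + 1) = prodN r d * (r ^ (d + 1) - 1) := by
  simp [prodN, Finset.prod_range_succ]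

theorem prodN_pos {r : ℕ} (hr : 2 ≤ r) (d : ℕ) : 0 < prodN r d := by
  apply Finset.prod_pos
  intro i _
  have : r ^ (i + 1) ≥ 2 ^ (i + 1) := Nat.pow_le_pow_left hr _
  have h2 : 2 ^ (i + 1) ≥ 2 := by
    rw [pow_succ]; have := Nat.one_le_two_pow (n := i); omega
  omega

theorem prodN_dvd (r : ℕ) {d e : ℕ} (h : d ≤ e) : prodN r d ∣ prodN r e := by
  induction e, h using Nat.le_induction with
  | base => exact dvd_rfl
  | succ e _ ih => rw [prodN_succ]; exact ih.trans (dvd_mul_right _ _)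

theorem prodN_le (r n : ℕ) (hr : 1 ≤ r) : prodN r (2 * n) ≤ r ^ (n * (2 * n + 1)) := by
  induction n with
  | zero => simp [prodN]
  | succ n ih =>
    have e : 2 * (n + 1) = 2 * n + 1 + 1 := by ring
    rw [e, prodN_succ, prodN_succ]
    have e2 : (n + 1) * (2 * n + 1 + 1 + 1) = n * (2 * n + 1) + (2 * n + 1) + (2 * n + 1 + 1) := by ring
    rw [e2, pow_add r (n * (2 * n + 1) + (2 * n + 1)), pow_add r (n * (2 * n + 1))]
    exact Nat.mul_le_mul (Nat.mul_le_mul ih (Nat.sub_le _ _)) (Nat.sub_le _ _)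

theorem aux_five (n : ℕ) (hn : 1 ≤ n) : n * (2 * n + 1) + 1 ≤ 5 ^ n := by
  induction n, hn using Nat.le_induction with
  | base => norm_num
  | succ n hn ih =>
    rw [pow_succ]
    nlinarith

theorem aux_three (n : ℕ) (hn : 3 ≤ n) : n * (2 * n + 1) + 1 ≤ 3 ^ n := by
  induction n, hn using Nat.le_induction with
  | base => norm_num
  | succ n hn ih =>
    rw [pow_succ]
    nlinarith

theorem aux_two (n : ℕ) (hn : 7 ≤ n) : n * (2 * n + 1) < 2 ^ n := by
  induction n, hn using Nat.le_induction with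
  | base => norm_num
  | succ n hn ih =>
    rw [pow_succ]
    nlinarith

theorem prodN_big_case (r n q : ℕ) (hr : 3 ≤ r) (hn : 1 ≤ n) (hq : r + 1 ≤ q) :
    prodN r (2 * n) ≤ q ^ (r ^ n - 1) := by
  have hq1 : 1 ≤ q := by omega
  by_cases h5 : 5 ≤ r
  · have h1 := prodN_le r n (by omega)
    have h2 := aux_five n hn
    have h3 : 5 ^ n ≤ r ^ n := Nat.pow_le_pow_left h5 n
    have h4 : n * (2 * n + 1) ≤ r ^ n - 1 := by omega
    calc prodN r (2 * n) ≤ r ^ (n * (2 * n + 1)) := h1
      _ ≤ r ^ (r ^ n - 1) := Nat.pow_le_pow_right (by omega) h4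
      _ ≤ q ^ (r ^ n - 1) := Nat.pow_le_pow_left (by omega) _
  · -- `r = 3` or `r = 4`; we treat them uniformly through small `n`
    have hr' : r = 3 ∨ r = 4 := by omega
    rcases hr' with rfl | rfl
    · by_cases h3 : 3 ≤ n
      · have h1 := prodN_le 3 n (by omega)
        have h2 := aux_three n h3
        have h4 : n * (2 * n + 1) ≤ 3 ^ n - 1 := by omega
        calc prodN 3 (2 * n) ≤ 3 ^ (n * (2 * n + 1)) := h1
          _ ≤ 3 ^ (3 ^ n - 1) := Nat.pow_le_pow_right (by omega) h4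
          _ ≤ q ^ (3 ^ n - 1) := Nat.pow_le_pow_left (by omega) _
      · have : n = 1 ∨ n = 2 := by omega
        rcases this with rfl | rfl
        · calc prodN 3 (2 * 1) ≤ 4 ^ (3 ^ 1 - 1) := by decide
            _ ≤ q ^ (3 ^ 1 - 1) := Nat.pow_le_pow_left hq _
        · calc prodN 3 (2 * 2) ≤ 4 ^ (3 ^ 2 - 1) := by decide
            _ ≤ q ^ (3 ^ 2 - 1) := Nat.pow_le_pow_left hq _
    · have h1 := prodN_le 4 n (by omega)
      have hh : n * (2 * n + 1) + 1 ≤ 4 ^ n ∨ n = 1 := by
        by_cases h : n = 1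
        · exact Or.inr h
        · left
          have : 2 ≤ n := by omega
          clear h h1
          induction n, this using Nat.le_induction with
          | base => norm_num
          | succ n hn ih =>
            rw [pow_succ]
            have := ih (by omega)
            nlinarith
      rcases hh with h2 | rfl
      · have h4 : n * (2 * n + 1) ≤ 4 ^ n - 1 := by omega
        calc prodN 4 (2 * n) ≤ 4 ^ (n * (2 * n + 1)) := h1
          _ ≤ 4 ^ (4 ^ n - 1) := Nat.pow_le_pow_right (by omega) h4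
          _ ≤ q ^ (4 ^ n - 1) := Nat.pow_le_pow_left (by omega) _
      · calc prodN 4 (2 * 1) ≤ 5 ^ (4 ^ 1 - 1) := by decide
          _ ≤ q ^ (4 ^ 1 - 1) := Nat.pow_le_pow_left hq _

theorem prodN_two_not_dvd (p n : ℕ) (hp : p.Prime) (hp2 : p ≠ 2) (hn : 1 ≤ n) :
    ¬ p ^ 2 ^ n ∣ prodN 2 (2 * n) := by
  have hp3 : 3 ≤ p := by
    have := hp.two_le
    omega
  have hpos := prodN_pos (le_refl 2) (2 * n)
  intro hd
  have hle := Nat.le_of_dvd hpos hd
  have hge3 : 3 ^ 2 ^ n ≤ p ^ 2 ^ n := Nat.pow_le_pow_left hp3 _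
  by_cases h6 : 6 ≤ n
  · have h1 := prodN_le 2 n (by omega)
    have h2 : 2 ^ (n * (2 * n + 1)) < 3 ^ 2 ^ n := by
      by_cases h7 : 7 ≤ n
      · have h3 := aux_two n h7
        calc 2 ^ (n * (2 * n + 1)) < 2 ^ 2 ^ n := Nat.pow_lt_pow_right (by omega) h3
          _ ≤ 3 ^ 2 ^ n := Nat.pow_le_pow_left (by omega) _
      · have : n = 6 := by omega
        subst this
        norm_num
    omega
  · -- small `n`
    have hN : n = 1 ∨ n = 2 ∨ n = 3 ∨ n = 4 ∨ n = 5 := by omega
    by_cases hp3' : p = 3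
    · subst hp3'
      rcases hN with rfl | rfl | rfl | rfl | rfl <;>
        · revert hd
          norm_num [prodN, Finset.prod_range_succ]
    · have hp5 : 5 ≤ p := by
        by_contra h
        have : p = 4 := by omega
        subst this
        norm_num at hp
      have hge5 : 5 ^ 2 ^ n ≤ p ^ 2 ^ n := Nat.pow_le_pow_left hp5 _
      rcases hN with rfl | rfl | rfl | rfl | rfl
      · revert hle hge5
        norm_num [prodN, Finset.prod_range_succ]
        omega
      · revert hle hge5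
        norm_num [prodN, Finset.prod_range_succ]
        omega
      · by_cases hp5' : p = 5
        · subst hp5'
          revert hd
          norm_num [prodN, Finset.prod_range_succ]
        · have hp7 : 7 ≤ p := by
            by_contra h
            have : p = 6 := by omega
            subst this
            norm_num at hp
          have hge7 : 7 ^ 2 ^ 3 ≤ p ^ 2 ^ 3 := Nat.pow_le_pow_left hp7 _
          revert hle hge7
          norm_num [prodN, Finset.prod_range_succ]
          omega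
      · revert hle hge5
        norm_num [prodN, Finset.prod_range_succ]
        omega
      · revert hle hge5
        norm_num [prodN, Finset.prod_range_succ]
        omega

theorem ordProj_prodN_le (p r n d q : ℕ) (hp : p.Prime) (hr : r.Prime) (hpr : p ≠ r)
    (hd : d ≤ 2 * n) (hn : 1 ≤ n) (hpq : p ≤ q) (hrq : r + 1 ≤ q) :
    ordProj[p] (prodN r d) ≤ q ^ (r ^ n - 1) := by
  have hr2 := hr.two_le
  have hN0 : prodN r (2 * n) ≠ 0 := (prodN_pos hr2 _).ne'
  have hD : ordProj[p] (prodN r d) ∣ ordProj[p] (prodN r (2 * n)) :=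
    Nat.ordProj_dvd_ordProj_of_dvd hN0 (prodN_dvd r hd) p
  have hO0 : 0 < ordProj[p] (prodN r (2 * n)) := Nat.ordProj_pos _ _
  refine (Nat.le_of_dvd hO0 hD).trans ?_
  by_cases h3 : 3 ≤ r
  · exact (Nat.le_of_dvd (prodN_pos hr2 _) (Nat.ordProj_dvd _ _)).trans (prodN_big_case r n q h3 hn hrq)
  · have hr2' : r = 2 := by omega
    subst hr2'
    have hnd := prodN_two_not_dvd p n hp hpr hn
    have hfac : (prodN 2 (2 * n)).factorization p < 2 ^ n := by
      by_contra hge
      push Not at hge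
      exact hnd ((Nat.Prime.pow_dvd_iff_le_factorization hp hN0).mpr hge)
    have h1 : (prodN 2 (2 * n)).factorization p ≤ 2 ^ n - 1 := by omega
    calc p ^ (prodN 2 (2 * n)).factorization p ≤ p ^ (2 ^ n - 1) :=
          Nat.pow_le_pow_right hp.pos h1
      _ ≤ q ^ (2 ^ n - 1) := Nat.pow_le_pow_left hpq _

/-- `∏_{i<d} (r^d - r^i) = r^s * ∏_{i=1}^d (r^i - 1)`. -/
theorem prod_gl_eq (r d : ℕ) (hr : 1 ≤ r) :
    ∃ s, ∏ i : Fin d, (r ^ d - r ^ (i : ℕ)) = r ^ s * prodN r d := by
  rw [Fin.prod_univ_eq_prod_range (fun i => r ^ d - r ^ i) d]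
  induction d with
  | zero => exact ⟨0, by simp [prodN]⟩
  | succ d ih =>
    obtain ⟨s, hs⟩ := ih
    -- rewrite each factor with a factor of `r`
    have h1 : ∀ i ∈ Finset.range d, r ^ (d + 1) - r ^ (i + 1) = r * (r ^ d - r ^ i) := by
      intro i _
      rw [Nat.mul_sub, pow_succ' r d, pow_succ' r i]
    have h2 : ∏ i ∈ Finset.range (d + 1), (r ^ (d + 1) - r ^ i)
        = (r ^ (d + 1) - r ^ 0) * ∏ i ∈ Finset.range d, (r ^ (d + 1) - r ^ (i + 1)) := by
      rw [Finset.prod_range_succ']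
      ring
    rw [h2, Finset.prod_congr rfl h1, Finset.prod_mul_distrib, hs, prodN_succ]
    refine ⟨d + s, ?_⟩
    simp only [Finset.prod_const, Finset.card_range, pow_zero, pow_add]
    ring

/-- The `p`-part of `|GL_d(r)|` is small. -/
theorem gl_part_le (p r n d q : ℕ) (hp : p.Prime) (hr : r.Prime) (hpr : p ≠ r)
    (hd : d ≤ 2 * n) (hn : 1 ≤ n) (hpq : p ≤ q) (hrq : r + 1 ≤ q) :
    ordProj[p] (∏ i : Fin d, (r ^ d - r ^ (i : ℕ))) ≤ q ^ (r ^ n - 1) := by
  obtain ⟨s, hs⟩ := prod_gl_eq r d hr.one_le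
  rw [hs]
  have hr2 := hr.two_le
  have h1 : r ^ s ≠ 0 := (pow_pos hr.pos s).ne'
  have h2 : prodN r d ≠ 0 := (prodN_pos hr2 d).ne'
  have h3 : (r ^ s * prodN r d).factorization p = (prodN r d).factorization p := by
    rw [Nat.factorization_mul h1 h2, Finsupp.add_apply, Nat.factorization_pow]
    have h0 : r.factorization p = 0 :=
      Nat.factorization_eq_zero_of_not_dvd (fun h : p ∣ r => hpr ((Nat.prime_dvd_prime_iff_eq hp hr).mp h))
    simp [h0]
  rw [h3]
  exact ordProj_prodN_le p r n d q hp hr hpr hd hn hpq hrq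

end Cfsg.Agent.Lib.CharDeep.PartBound
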