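import Cfsg.Agent.Lib.CharDeep.PartBound.CaseB
import Cfsg.Agent.Lib.CharDeep.PartBound.Chief
import Cfsg.Agent.Lib.CharDeep.PartBound.Numeric

/-!
# Irreducible faithful actions: the extraspecial-like case

All abelian normal subgroups consist of scalars, but not all of `E` does. `caseC` gives the conclusion.
-/

set_option autoImplicit false
set_option linter.unusedSectionVars false

namespace Cfsg.Agent.Lib.CharDeep.PartBound

open Cfsg Cfsg.Agent.Lib.Core.Basic
open scoped commutatorElement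

universe u v

variable {E : Type u} [Group E] [Finite E] {W : Type v} [AddCommGroup W] [Finite W] [Nontrivial W]
  {p : ℕ} [Fact p.Prime] {R : Subring (AddMonoid.End W)} {ρ : E →* AddMonoid.End W}

theorem not_dvd_card_of_comm_le (h : IrrData p R ρ) {D : Subgroup E} (hD : D.Normal)
    (hcm : ∀ x ∈ D, ∀ y ∈ D, ⁅x, y⁆ ∈ Zs h) : ¬ p ∣ Nat.card D := by
  have hOp := h.pCore_eq_bot
  refine not_dvd_of_normal_sylow hOp hD (fun S => ?_)
  haveI := Zs_normal h
  let Z₀ := (Zs h).subgroupOf D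
  have hmc : ∀ x y : D ⧸ Z₀, x * y = y * x := by
    intro x y
    obtain ⟨x, rfl⟩ := QuotientGroup.mk_surjective x
    obtain ⟨y, rfl⟩ := QuotientGroup.mk_surjective y
    rw [← QuotientGroup.mk_mul, ← QuotientGroup.mk_mul, QuotientGroup.eq]
    rw [Subgroup.mem_subgroupOf]
    have h1 := hcm _ (D.inv_mem y.2) _ (D.inv_mem x.2)
    have e : (((x * y)⁻¹ * (y * x) : D) : E) = ⁅(y : E)⁻¹, (x : E)⁻¹⁆ := by
      simp only [commutatorElement_def]
      push_cast
      group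
    rw [e]
    exact h1
  letI iC : CommGroup (D ⧸ Z₀) := { (inferInstance : Group (D ⧸ Z₀)) with mul_comm := hmc }
  haveI hnilQ : Group.IsNilpotent (D ⧸ Z₀) := @CommGroup.isNilpotent _ iC
  have hker : (QuotientGroup.mk' Z₀).ker ≤ Subgroup.center D := by
    rw [QuotientGroup.ker_mk']
    intro z hz
    rw [Subgroup.mem_center_iff]
    intro t
    apply Subtype.ext
    exact Zs_central h (Subgroup.mem_subgroupOf.mp hz) t.1
  haveI hnil : Group.IsNilpotent D := Subgroup.isNilpotent_of_ker_le_center _ hker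
  exact Sylow.normal_of_normalizerCondition normalizerCondition_of_isNilpotent S

theorem exists_max_abelian (h : IrrData p R ρ) {D : Subgroup E} (hZD : Zs h ≤ D) :
    ∃ A : Subgroup E, Zs h ≤ A ∧ A ≤ D ∧ (∀ x ∈ A, ∀ y ∈ A, x * y = y * x) ∧
      ∀ x ∈ D, (∀ a ∈ A, x * a = a * x) → x ∈ A := by
  classical
  let P : Subgroup E → Prop := fun A => Zs h ≤ A ∧ A ≤ D ∧ ∀ x ∈ A, ∀ y ∈ A, x * y = y * x
  obtain ⟨A, -, hA⟩ := Finite.exists_le_maximal (p := P) (a := Zs h) ⟨le_rfl, hZD, Zs_comm h⟩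
  refine ⟨A, hA.prop.1, hA.prop.2.1, hA.prop.2.2, ?_⟩
  intro x hx hcomm
  let S : Set E := (A : Set E) ∪ {x}
  have hS : ∀ a ∈ S, ∀ b ∈ S, a * b = b * a := by
    rintro a (ha | rfl) b (hb | rfl)
    · exact hA.prop.2.2 a ha b hb
    · exact (hcomm a ha).symm
    · exact hcomm b hb
    · rfl
  have hSc : Subgroup.closure S ≤ Subgroup.centralizer S := by
    rw [Subgroup.closure_le]
    intro a ha
    rw [SetLike.mem_coe, Subgroup.mem_centralizer_iff]
    intro b hb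
    exact hS b hb a ha
  have hcc := Subgroup.closure_le_centralizer_centralizer S
  have hP : P (Subgroup.closure S) := by
    refine ⟨hA.prop.1.trans ?_, ?_, ?_⟩
    · exact fun y hy => Subgroup.subset_closure (Or.inl hy)
    · rw [Subgroup.closure_le]
      rintro y (hy | rfl)
      · exact hA.prop.2.1 hy
      · exact hx
    · intro a ha b hb
      have h1 := hcc ha
      rw [Subgroup.mem_centralizer_iff] at h1
      exact (h1 b (hSc hb)).symm
  have hle := hA.le_of_ge hP (fun y hy => Subgroup.subset_closure (Or.inl hy))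
  exact hle (Subgroup.subset_closure (Or.inr rfl))

theorem relIndex_le_relIndex (h : IrrData p R ρ) {D A : Subgroup E} (hZA : Zs h ≤ A) (hAD : A ≤ D)
    (hcm : ∀ x ∈ D, ∀ y ∈ D, ⁅x, y⁆ ∈ Zs h) (hAmax : ∀ x ∈ D, (∀ a ∈ A, x * a = a * x) → x ∈ A) :
    A.relIndex D ≤ (Zs h).relIndex A := by
  classical
  haveI := finite_end (W := W)
  letI iK : Field R := fieldOf R h.good.comm h.inv
  haveI := Zs_normal h
  let Z₀ := (Zs h).subgroupOf A
  have hcen : ∀ z ∈ Zs h, ∀ t : E, t * z = z * t := fun z hz t => Zs_central h hz t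
  let φ : D → (A →* R) := fun d =>
    { toFun := fun a => ⟨ρ ⁅d.1, a.1⁆, hcm _ d.2 _ (hAD a.2)⟩
      map_one' := Subtype.ext (by
        show ρ ⁅d.1, (1 : E)⁆ = 1
        rw [commutatorElement_one_right, map_one])
      map_mul' := fun a b => Subtype.ext (by
        show ρ ⁅d.1, a.1 * b.1⁆ = ρ ⁅d.1, a.1⁆ * ρ ⁅d.1, b.1⁆
        rw [cm_mul_right (hcen _ (hcm _ d.2 _ (hAD b.2))), map_mul]) }
  let ψ : D → ((A ⧸ Z₀) →* R) := fun d => QuotientGroup.lift Z₀ (φ d) (by
    intro x hx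
    apply Subtype.ext
    show ρ ⁅d.1, x.1⁆ = 1
    have h1 : d.1 * x.1 = x.1 * d.1 := hcen _ (Subgroup.mem_subgroupOf.mp hx) _
    have h2 : ⁅d.1, x.1⁆ = 1 := commutatorElement_eq_one_iff_mul_comm.mpr h1
    rw [h2, map_one])
  have hψ : ∀ (d : D) (a : A), ((ψ d (a : A ⧸ Z₀) : R) : AddMonoid.End W) = ρ ⁅d.1, a.1⁆ := fun _ _ => rfl
  let F : (D ⧸ A.subgroupOf D) → ((A ⧸ Z₀) →* R) := fun q => ψ q.out
  have hF : Function.Injective F := by
    intro q q' hqq
    have hcomm : ∀ a ∈ A, (q'.out.1⁻¹ * q.out.1) * a = a * (q'.out.1⁻¹ * q.out.1) := by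
      intro a ha
      have h1 : ((ψ q.out ((⟨a, ha⟩ : A) : A ⧸ Z₀) : R) : AddMonoid.End W)
          = ((ψ q'.out ((⟨a, ha⟩ : A) : A ⧸ Z₀) : R) : AddMonoid.End W) := by
        have := DFunLike.congr_fun hqq ((⟨a, ha⟩ : A) : A ⧸ Z₀)
        exact congrArg Subtype.val this
      rw [hψ, hψ] at h1
      have h2 := h.faith h1
      simp only [commutatorElement_def] at h2
      have h3 : q.out.1 * a * q.out.1⁻¹ = q'.out.1 * a * q'.out.1⁻¹ := mul_right_cancel h2
      calc (q'.out.1⁻¹ * q.out.1) * a = q'.out.1⁻¹ * (q.out.1 * a * q.out.1⁻¹) * q.out.1 := by group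
        _ = q'.out.1⁻¹ * (q'.out.1 * a * q'.out.1⁻¹) * q.out.1 := by rw [h3]
        _ = a * (q'.out.1⁻¹ * q.out.1) := by group
    have hmem := hAmax _ (D.mul_mem (D.inv_mem q'.out.2) q.out.2) hcomm
    have h1 : (q'.out : D ⧸ A.subgroupOf D) = (q.out : D ⧸ A.subgroupOf D) := by
      rw [QuotientGroup.eq, Subgroup.mem_subgroupOf]
      exact hmem
    rw [QuotientGroup.out_eq', QuotientGroup.out_eq'] at h1
    exact h1.symm
  haveI : Finite ((A ⧸ Z₀) →* R) :=
    Finite.of_injective (fun f : (A ⧸ Z₀) →* R => (f : (A ⧸ Z₀) → R)) DFunLike.coe_injective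
  have h1 : Nat.card (D ⧸ A.subgroupOf D) ≤ Nat.card ((A ⧸ Z₀) →* R) :=
    Nat.card_le_card_of_injective F hF
  exact h1.trans card_monoidHom_field_le

theorem sum_cm_eq_zero (h : IrrData p R ρ) {D : Subgroup E} [Fintype D] {v : E}
    (hcm' : ∀ x ∈ D, ⁅x, v⁆ ∈ Zs h) {d₀ : E} (hd₀ : d₀ ∈ D) (hne : ⁅d₀, v⁆ ≠ 1) :
    ∑ d : D, ρ ⁅(d : E), v⁆ = 0 := by
  classical
  set S := ∑ d : D, ρ ⁅(d : E), v⁆ with hS
  have h1 : ρ ⁅d₀, v⁆ * S = S := by
    rw [hS, Finset.mul_sum]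
    refine Fintype.sum_equiv (Equiv.mulLeft (⟨d₀, hd₀⟩ : D)) _ _ fun d => ?_
    simp only [Equiv.coe_mulLeft, Subgroup.coe_mul]
    rw [cm_mul_left (fun t => Zs_central h (hcm' _ d.2) t), map_mul]
  have hmem : ρ ⁅d₀, v⁆ - 1 ∈ R := R.sub_mem (hcm' d₀ hd₀) R.one_mem
  have hne' : ρ ⁅d₀, v⁆ - 1 ≠ 0 := by
    intro h0
    apply hne
    apply h.faith
    rw [map_one]
    exact sub_eq_zero.mp h0
  obtain ⟨b, hb, hcb⟩ := h.inv _ hmem hne'
  have h2 : (ρ ⁅d₀, v⁆ - 1) * S = 0 := by rw [sub_mul, one_mul, h1, sub_self]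
  calc S = (b * (ρ ⁅d₀, v⁆ - 1)) * S := by
        rw [h.good.comm b hb _ hmem, hcb, one_mul]
    _ = 0 := by rw [mul_assoc, h2, mul_zero]

theorem indep (h : IrrData p R ρ) {D A : Subgroup E} (hAD : A ≤ D)
    (hcm : ∀ x ∈ D, ∀ y ∈ D, ⁅x, y⁆ ∈ Zs h) (hcen : ∀ v ∈ D, (∀ d ∈ D, ⁅d, v⁆ = 1) → v ∈ Zs h)
    (hcop : ¬ p ∣ Nat.card D) [Fintype (A ⧸ (Zs h).subgroupOf A)]
    (c : (A ⧸ (Zs h).subgroupOf A) → AddMonoid.End W) (hc : ∀ t, c t ∈ R)
    (hsum : ∑ t, c t * ρ (t.out : A).1 = 0) (t₀ : A ⧸ (Zs h).subgroupOf A) : c t₀ = 0 := by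
  classical
  have hp : p.Prime := Fact.out
  letI : Fintype D := Fintype.ofFinite D
  set u₀ : E := (t₀.out : A).1 with hu₀
  let v : (A ⧸ (Zs h).subgroupOf A) → E := fun t => (t.out : A).1 * u₀⁻¹
  have hv : ∀ t, v t ∈ A := fun t => A.mul_mem t.out.2 (A.inv_mem t₀.out.2)
  have hvD : ∀ t, v t ∈ D := fun t => hAD (hv t)
  have h1 : ∑ t, c t * ρ (v t) = 0 := by
    have := congrArg (fun x => x * ρ u₀⁻¹) hsum
    simp only [Finset.sum_mul, zero_mul] at this
    rw [← this]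
    refine Finset.sum_congr rfl fun t _ => ?_
    simp only [v]
    rw [map_mul, mul_assoc]
  have hconj : ∀ (d : D) (t), ρ d.1 * (c t * ρ (v t)) * ρ d.1⁻¹ = c t * (ρ ⁅d.1, v t⁆ * ρ (v t)) := by
    intro d t
    have e1 : ρ d.1 * c t = c t * ρ d.1 := h.comm d.1 (c t) (hc t)
    have e2 : ρ d.1 * ρ (v t) * ρ d.1⁻¹ = ρ ⁅d.1, v t⁆ * ρ (v t) := by
      rw [← map_mul, ← map_mul, ← map_mul]
      congr 1
      simp only [commutatorElement_def]
      group
    calc ρ d.1 * (c t * ρ (v t)) * ρ d.1⁻¹ = (ρ d.1 * c t) * ρ (v t) * ρ d.1⁻¹ := by noncomm_ring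
      _ = c t * (ρ d.1 * ρ (v t) * ρ d.1⁻¹) := by rw [e1]; noncomm_ring
      _ = _ := by rw [e2]
  have h2 : ∑ t, c t * ((∑ d : D, ρ ⁅d.1, v t⁆) * ρ (v t)) = 0 := by
    have h3 : ∑ d : D, ρ d.1 * (∑ t, c t * ρ (v t)) * ρ d.1⁻¹ = 0 := by
      rw [h1]
      simp
    rw [← h3]
    simp only [Finset.mul_sum, Finset.sum_mul]
    rw [Finset.sum_comm]
    refine Finset.sum_congr rfl fun t _ => Finset.sum_congr rfl fun d _ => ?_
    rw [hconj]
  have h3 : ∀ t, t ≠ t₀ → ∑ d : D, ρ ⁅d.1, v t⁆ = 0 := by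
    intro t ht
    have hnZ : v t ∉ Zs h := by
      intro hz
      apply ht
      have h4 : ((t.out : A) : A ⧸ (Zs h).subgroupOf A) = ((t₀.out : A) : A ⧸ (Zs h).subgroupOf A) := by
        rw [QuotientGroup.eq, Subgroup.mem_subgroupOf]
        have e : (((t.out : A)⁻¹ * t₀.out : A) : E) = u₀⁻¹ * (v t)⁻¹ * u₀⁻¹⁻¹ := by
          simp only [v, hu₀]
          push_cast
          group
        rw [e]
        exact (Zs_normal h).conj_mem _ ((Zs h).inv_mem hz) _
      rwa [QuotientGroup.out_eq', QuotientGroup.out_eq'] at h4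
    have hex : ∃ d₀ ∈ D, ⁅d₀, v t⁆ ≠ 1 := by
      by_contra hall
      push Not at hall
      exact hnZ (hcen _ (hvD t) hall)
    obtain ⟨d₀, hd₀, hne⟩ := hex
    exact sum_cm_eq_zero h (fun x hx => hcm x hx _ (hvD t)) hd₀ hne
  have hvt₀ : v t₀ = 1 := by
    simp [v, hu₀]
  have h4 : c t₀ * ((∑ d : D, ρ ⁅d.1, v t₀⁆) * ρ (v t₀)) = 0 := by
    rw [← h2]
    symm
    apply Finset.sum_eq_single t₀
    · intro t _ ht
      rw [h3 t ht, zero_mul, mul_zero]
    · intro h5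
      exact absurd (Finset.mem_univ _) h5
  have h5 : Nat.card D • c t₀ = 0 := by
    rw [hvt₀] at h4
    simp only [commutatorElement_one_right, map_one, mul_one, Finset.sum_const, Finset.card_univ,
      ← Nat.card_eq_fintype_card] at h4
    rw [mul_smul_comm, mul_one] at h4
    exact h4
  have h6 : p • c t₀ = 0 := by
    refine DFunLike.ext _ _ fun w => ?_
    exact h.tors _
  have h7 : addOrderOf (c t₀) ∣ p := addOrderOf_dvd_of_nsmul_eq_zero h6
  have h8 : addOrderOf (c t₀) ∣ Nat.card D := addOrderOf_dvd_of_nsmul_eq_zero h5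
  rcases (Nat.dvd_prime hp).mp h7 with h9 | h9
  · exact AddMonoid.addOrderOf_eq_one_iff.mp h9
  · rw [h9] at h8
    exact absurd h8 hcop

theorem pow_le_card_adj (h : IrrData p R ρ) {D A : Subgroup E} (hAD : A ≤ D)
    (hcm : ∀ x ∈ D, ∀ y ∈ D, ⁅x, y⁆ ∈ Zs h) (hcen : ∀ v ∈ D, (∀ d ∈ D, ⁅d, v⁆ = 1) → v ∈ Zs h)
    (hcop : ¬ p ∣ Nat.card D) : Nat.card R ^ (Zs h).relIndex A ≤ Nat.card (adjS R ρ A) := by
  classical
  haveI := finite_end (W := W)
  letI : Fintype (A ⧸ (Zs h).subgroupOf A) := Fintype.ofFinite _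
  let g : ((A ⧸ (Zs h).subgroupOf A) → R) → adjS R ρ A := fun l =>
    ⟨∑ t, (l t).1 * ρ (t.out : A).1, Subring.sum_mem _ fun t _ =>
      Subring.mul_mem _ (le_adjS (l t).2) (map_mem_adjS t.out.2)⟩
  have hg : Function.Injective g := by
    intro l m hlm
    have h1 : ∑ t, (l t).1 * ρ (t.out : A).1 = ∑ t, (m t).1 * ρ (t.out : A).1 :=
      congrArg Subtype.val hlm
    funext t₀
    have h2 := indep h hAD hcm hcen hcop (fun t => (l t).1 - (m t).1)
      (fun t => R.sub_mem (l t).2 (m t).2) (by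
        simp only [sub_mul]
        rw [Finset.sum_sub_distrib, h1, sub_self]) t₀
    exact Subtype.ext (sub_eq_zero.mp h2)
  have := Nat.card_le_card_of_injective g hg
  rw [Nat.card_fun] at this
  exact this

theorem succ_le_card_R (h : IrrData p R ρ) {r : ℕ} [Fact r.Prime] {z : E} (hz : z ∈ Zs h)
    (hne : z ≠ 1) (hpow : z ^ r = 1) : r + 1 ≤ Nat.card R := by
  classical
  haveI := finite_end (W := W)
  have h1 : orderOf z = r := orderOf_eq_prime hpow hne
  have h2 : r ∣ Nat.card (Zs h) := h1 ▸ Subgroup.orderOf_dvd_natCard _ hz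
  have h3 : r ≤ Nat.card (Zs h) := Nat.le_of_dvd Nat.card_pos h2
  have h4 : Nat.card (Zs h) + 1 ≤ Nat.card R := by
    have hne0 : ∀ g : Zs h, ρ g.1 ≠ 0 := by
      intro g h0
      have := rho_mul_inv ρ g.1
      rw [h0, zero_mul] at this
      exact end_one_ne_zero this.symm
    let F : Option (Zs h) → R := fun o => match o with
      | none => 0
      | some g => ⟨ρ g.1, g.2⟩
    have hF : Function.Injective F := by
      rintro (_ | g) (_ | g') hgg
      · rfl
      · exact absurd (congrArg Subtype.val hgg).symm (hne0 g')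
      · exact absurd (congrArg Subtype.val hgg) (hne0 g)
      · have h5 : ρ g.1 = ρ g'.1 := congrArg Subtype.val hgg
        rw [Subtype.ext (h.faith h5)]
    have h6 := Nat.card_le_card_of_injective F hF
    rwa [Finite.card_option] at h6
  omega

theorem caseC [Group.IsSolvable E] (h : IrrData p R ρ)
    (hOuter : ∀ (E' : Type u) [Group E'] [Finite E'] [Group.IsSolvable E'],
      Nat.card E' < Nat.card E → Red.{u, v} p E')
    (hAll : ∀ B : Subgroup E, B.Normal → (∀ x ∈ B, ∀ y ∈ B, x * y = y * x) → B ≤ Zs h)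
    (hZ : Zs h ≠ ⊤) : Concl p R ρ := by
  classical
  have hpp : p.Prime := Fact.out
  haveI := finite_end (W := W)
  haveI hZn := Zs_normal h
  have hOp := h.pCore_eq_bot
  obtain ⟨D, r, hD, hZD, hcm, hr, hpowr, ⟨a, ha, hidx⟩, -⟩ := exists_chief_above (Zs h) hZ
  haveI : Fact r.Prime := ⟨hr⟩
  haveI := hD
  have hcentral : ∀ z ∈ Zs h, ∀ t : E, t * z = z * t := fun z hz t => Zs_central h hz t
  have hcop : ¬ p ∣ Nat.card D := not_dvd_card_of_comm_le h hD hcm
  have hpr : p ≠ r := by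
    rintro rfl
    apply hcop
    exact (dvd_pow_self p ha.ne').trans (hidx ▸ Subgroup.relIndex_dvd_card _ _)
  set C₀ := Subgroup.centralizer (D : Set E) with hC₀
  haveI hC₀n : C₀.Normal := Subgroup.normal_centralizer
  have hcen : ∀ v ∈ D, (∀ d ∈ D, ⁅d, v⁆ = 1) → v ∈ Zs h := by
    intro v hv hall
    have hn : (D ⊓ C₀).Normal := Subgroup.normal_inf_normal _ _
    have hab : ∀ x ∈ D ⊓ C₀, ∀ y ∈ D ⊓ C₀, x * y = y * x := by
      rintro x ⟨hx, hx'⟩ y ⟨hy, hy'⟩
      exact Subgroup.mem_centralizer_iff.mp hy' x hx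
    apply hAll _ hn hab
    refine ⟨hv, Subgroup.mem_centralizer_iff.mpr fun d hd => ?_⟩
    exact commutatorElement_eq_one_iff_mul_comm.mp (hall d hd)
  obtain ⟨A, hZA, hAD, hAc, hAmax⟩ := exists_max_abelian h hZD.le
  have hZneA : ¬ A ≤ Zs h := by
    intro hle
    obtain ⟨x, hx, hxZ⟩ := SetLike.exists_of_lt hZD
    apply hxZ
    apply hle
    apply hAmax x hx
    intro b hb
    exact hcentral b (hle hb) x
  have hP : IsPGroup r (A ⧸ (Zs h).subgroupOf A) := by
    intro t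
    obtain ⟨t, rfl⟩ := QuotientGroup.mk_surjective t
    refine ⟨1, ?_⟩
    rw [pow_one, ← QuotientGroup.mk_pow, QuotientGroup.eq_one_iff, Subgroup.mem_subgroupOf]
    simpa using hpowr t.1 (hAD t.2)
  obtain ⟨n, hn⟩ := IsPGroup.iff_card.mp hP
  have hn' : (Zs h).relIndex A = r ^ n := hn
  have hn1 : 1 ≤ n := by
    by_contra hn0
    have h0 : n = 0 := by omega
    rw [h0, pow_zero] at hn'
    exact hZneA (Subgroup.relIndex_eq_one.mp hn')
  have hle := relIndex_le_relIndex h hZA hAD hcm hAmax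
  have hmul : (Zs h).relIndex A * A.relIndex D = (Zs h).relIndex D :=
    Subgroup.relIndex_mul_relIndex _ _ _ hZA hAD
  have hd : a ≤ 2 * n := by
    have h1 : r ^ a ≤ r ^ (2 * n) := by
      rw [← hidx, ← hmul, hn', two_mul, pow_add]
      exact Nat.mul_le_mul_left _ (hle.trans hn'.le)
    exact (Nat.pow_le_pow_iff_right hr.one_lt).mp h1
  have hnab : ∃ x ∈ D, ∃ y ∈ D, ⁅x, y⁆ ≠ 1 := by
    by_contra hall
    push Not at hall
    have h1 : D ≤ Zs h :=
      hAll D hD (fun x hx y hy => commutatorElement_eq_one_iff_mul_comm.mp (hall x hx y hy))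
    exact absurd h1 (not_le_of_gt hZD)
  obtain ⟨x, hx, y, hy, hxy⟩ := hnab
  have hqr : r + 1 ≤ Nat.card R := succ_le_card_R h (hcm x hx y hy) hxy (by
    rw [← cm_pow_left (hcentral _ (hcm x hx y hy))]
    exact commutatorElement_eq_one_iff_mul_comm.mpr (hcentral _ (hpowr x hx) y).symm)
  have hqp : p ≤ Nat.card R := p_le_card_R h.tors
  have hcopA : ¬ p ∣ Nat.card A := fun hd' => hcop (hd'.trans (Subgroup.card_dvd_of_le hAD))
  have hL : Good (adjS R ρ A) := good_adj h.good h.inv h.tors h.comm hAc hcopA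
  have hLcard := pow_le_card_adj h hAD hcm hcen hcop
  have hC₀top : C₀ ≠ ⊤ := by
    intro htop
    have h1 : y ∈ C₀ := by rw [htop]; trivial
    exact hxy (commutatorElement_eq_one_iff_mul_comm.mpr
      (Subgroup.mem_centralizer_iff.mp h1 x hx))
  have hcardC₀ : Nat.card C₀ < Nat.card E := by
    have h1 := Subgroup.card_mul_index C₀
    have h2 : C₀.index ≠ 1 := fun h3 => hC₀top (Subgroup.index_eq_one.mp h3)
    have h3 : C₀.index ≠ 0 := Subgroup.index_ne_zero_of_finite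
    have h4 : 0 < Nat.card C₀ := Nat.card_pos
    rw [← h1]
    have h5 : 2 ≤ C₀.index := by omega
    nlinarith
  have hcommC₀ : ∀ g : C₀, ∀ b ∈ adjS R ρ A, (ρ.comp C₀.subtype) g * b = b * (ρ.comp C₀.subtype) g := by
    intro g b hb
    refine adj_comm_of (h.comm g.1) (fun c hc => ?_) hb
    have h1 := Subgroup.mem_centralizer_iff.mp g.2
    rw [← map_mul, ← map_mul, h1 c (hAD hc)]
  obtain ⟨N₀, hN₀, hu, hbd⟩ := hOuter C₀ hcardC₀ W h.tors _ hL (ρ.comp C₀.subtype) hcommC₀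
  have hN₀p : IsPGroup p N₀ := by
    intro n
    obtain ⟨k, hk⟩ := hu n.1 n.2
    refine ⟨k, ?_⟩
    apply Subtype.ext
    apply Subtype.ext
    apply h.faith
    simpa using hk
  have hN₀b : N₀ = ⊥ := normal_p_trivial hOp hC₀n hN₀ hN₀p
  rw [hN₀b, Subgroup.index_bot] at hbd
  -- the action on `D / Z`
  let q := QuotientGroup.mk' (Zs h)
  have hqs : Function.Surjective q := QuotientGroup.mk'_surjective _
  let Db : Subgroup (E ⧸ Zs h) := D.map q
  haveI hDbn : Db.Normal := hD.map q hqs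
  let π : E →* MulAut Db := (MulAut.conjNormal : (E ⧸ Zs h) →* MulAut Db).comp q
  have hq1 : ∀ z, q z = 1 ↔ z ∈ Zs h := fun z => QuotientGroup.eq_one_iff z
  have hcDb : ∀ u v : Db, u * v = v * u := by
    rintro ⟨_, d, hd', rfl⟩ ⟨_, d', hd'', rfl⟩
    apply Subtype.ext
    show q d * q d' = q d' * q d
    have h1 : q ⁅d, d'⁆ = 1 := (hq1 _).mpr (hcm d hd' d' hd'')
    rw [map_commutatorElement] at h1
    exact commutatorElement_eq_one_iff_mul_comm.mp h1
  have hpDb : ∀ u : Db, u ^ r = 1 := by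
    rintro ⟨_, d, hd', rfl⟩
    apply Subtype.ext
    show q d ^ r = 1
    rw [← map_pow]
    exact (hq1 _).mpr (hpowr d hd')
  have hcardDb : Nat.card Db = r ^ a := by
    rw [← hidx]
    let f : D →* (E ⧸ Zs h) := q.comp D.subtype
    have hr1 : f.range = Db := by
      rw [MonoidHom.range_comp, Subgroup.range_subtype]
    have hk1 : f.ker = (Zs h).subgroupOf D := by
      ext z
      rw [MonoidHom.mem_ker, Subgroup.mem_subgroupOf]
      exact hq1 _
    have h1 := Subgroup.index_ker f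
    rw [hk1, hr1] at h1
    exact h1.symm
  have hGL := card_mulAut_elem hcDb hpDb hcardDb
  have hCdvd : π.ker.index ∣ ∏ i : Fin a, (r ^ a - r ^ (i : ℕ)) := by
    rw [← hGL, Subgroup.index_ker]
    exact Subgroup.card_subgroup_dvd_card _
  have hprod0 : ∏ i : Fin a, (r ^ a - r ^ (i : ℕ)) ≠ 0 :=
    Finset.prod_ne_zero_iff.mpr (fun i _ => Nat.sub_ne_zero_of_lt (Nat.pow_lt_pow_right hr.one_lt i.2))
  have hCpart : ordProj[p] π.ker.index ≤ Nat.card R ^ (r ^ n - 1) := by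
    have h1 := Nat.ordProj_dvd_ordProj_of_dvd hprod0 hCdvd p
    have h2 := Nat.le_of_dvd (Nat.ordProj_pos _ _) h1
    exact h2.trans (gl_part_le p r n a (Nat.card R) hpp hr hpr hd hn1 hqp hqr)
  have hC₀C : C₀ ≤ π.ker := by
    intro g hg
    rw [MonoidHom.mem_ker]
    refine MulEquiv.ext fun u => Subtype.ext ?_
    obtain ⟨_, d, hd', rfl⟩ := u
    show q g * q d * (q g)⁻¹ = q d
    have h1 := Subgroup.mem_centralizer_iff.mp hg d hd'
    rw [← map_mul, ← h1, map_mul, mul_inv_cancel_right]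
  have hCcomm : ∀ g ∈ π.ker, ∀ d ∈ D, ⁅g, d⁆ ∈ Zs h := by
    intro g hg d hd'
    rw [MonoidHom.mem_ker] at hg
    have h1 : π g ⟨q d, d, hd', rfl⟩ = ⟨q d, d, hd', rfl⟩ := by rw [hg]; rfl
    have h2 : q g * q d * (q g)⁻¹ = q d := congrArg Subtype.val h1
    rw [← hq1, map_commutatorElement]
    exact commutatorElement_eq_one_iff_mul_comm.mpr (mul_inv_eq_iff_eq_mul.mp h2)
  have hpowC : ∀ g ∈ π.ker, g ^ r ∈ C₀ := by
    intro g hg
    refine Subgroup.mem_centralizer_iff.mpr fun d hd' => ?_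
    have h1 := hCcomm g hg d hd'
    have h2 : ⁅g ^ r, d⁆ = 1 := by
      rw [cm_pow_left (hcentral _ h1), ← cm_pow_right (hcentral _ h1)]
      exact commutatorElement_eq_one_iff_mul_comm.mpr (hcentral _ (hpowr d hd') g)
    exact (commutatorElement_eq_one_iff_mul_comm.mp h2).symm
  have hPC : IsPGroup r (π.ker ⧸ C₀.subgroupOf π.ker) := by
    intro t
    obtain ⟨t, rfl⟩ := QuotientGroup.mk_surjective t
    refine ⟨1, ?_⟩
    rw [pow_one, ← QuotientGroup.mk_pow, QuotientGroup.eq_one_iff, Subgroup.mem_subgroupOf]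
    simpa using hpowC t.1 t.2
  obtain ⟨k, hk⟩ := IsPGroup.iff_card.mp hPC
  have hk' : C₀.relIndex π.ker = r ^ k := hk
  have hi1 : C₀.relIndex π.ker * π.ker.index = C₀.index := Subgroup.relIndex_mul_index hC₀C
  have hi2 : C₀.index * Nat.card C₀ = Nat.card E := Subgroup.index_mul_card C₀
  refine ⟨⊥, Subgroup.normal_bot, ?_, ?_⟩
  · intro n hn
    rw [Subgroup.mem_bot] at hn
    exact ⟨0, by simp [hn]⟩
  · rw [Subgroup.index_bot, ← hi2, ← hi1, hk']
    have h0 : r ^ k ≠ 0 := (pow_pos hr.pos k).ne'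
    have h1 : π.ker.index ≠ 0 := Subgroup.index_ne_zero_of_finite
    have h2 : Nat.card C₀ ≠ 0 := Nat.card_pos.ne'
    rw [Nat.ordProj_mul p (mul_ne_zero h0 h1) h2, Nat.ordProj_mul p h0 h1]
    have h3 : ordProj[p] (r ^ k) = 1 := by
      have h4 : (r ^ k).factorization p = 0 := by
        rw [Nat.factorization_pow, Finsupp.smul_apply,
          Nat.factorization_eq_zero_of_not_dvd
            (fun h' : p ∣ r => hpr ((Nat.prime_dvd_prime_iff_eq hpp hr).mp h'))]
        simp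
      rw [h4, pow_zero]
    rw [h3, one_mul, ← mul_assoc]
    have h5 : 1 ≤ r ^ n := Nat.one_le_pow _ _ hr.pos
    calc Nat.card R * ordProj[p] π.ker.index * ordProj[p] (Nat.card C₀)
        ≤ Nat.card R * Nat.card R ^ (r ^ n - 1) * ordProj[p] (Nat.card C₀) :=
          Nat.mul_le_mul_right _ (Nat.mul_le_mul_left _ hCpart)
      _ = Nat.card R ^ (r ^ n) * ordProj[p] (Nat.card C₀) := by
          rw [← pow_succ', Nat.sub_add_cancel h5]
      _ ≤ Nat.card (adjS R ρ A) * ordProj[p] (Nat.card C₀) := by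
          apply Nat.mul_le_mul_right
          rw [← hn']
          exact hLcard
      _ ≤ Nat.card W := hbd

end Cfsg.Agent.Lib.CharDeep.PartBound
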