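import Cfsg.Agent.Lib.CharDeep.PartBound.Main

/-!
# The bound for a core free supplement to a minimal normal subgroup

`complement_bound`: let `V` be an elementary abelian minimal normal `p`-subgroup of the finite solvable
group `G` and `H` a core free subgroup with `H V = G`. Then `p * |H|_p ≤ |V|`.
-/

set_option autoImplicit false
set_option linter.unusedSectionVars false

namespace Cfsg.Agent.Lib.CharDeep.PartBound

universe u

variable {G : Type u} [Group G] [Finite G] [Group.IsSolvable G]

theorem complement_bound {H V : Subgroup G} [hV : V.Normal] (hc : ∀ x ∈ V, ∀ y ∈ V, x * y = y * x)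
    (p : ℕ) [Fact p.Prime] (hpow : ∀ x ∈ V, x ^ p = 1) (hVne : V ≠ ⊥)
    (hmin : ∀ X : Subgroup G, X.Normal → X ≤ V → X = ⊥ ∨ X = V) (hHV : H ⊔ V = ⊤)
    (hcore : ∀ M : Subgroup G, M.Normal → M ≤ H → M = ⊥) :
    p * ordProj[p] (Nat.card H) ≤ Nat.card V := by
  classical
  have hp : p.Prime := Fact.out
  have hsup : ∀ g : G, ∃ h ∈ H, ∃ v ∈ V, h * v = g := by
    intro g
    have : g ∈ H ⊔ V := by rw [hHV]; trivial
    exact Subgroup.mem_sup_of_normal_right.mp this
  letI iC : CommGroup V :=
    { (inferInstance : Group V) with mul_comm := fun a b => Subtype.ext (hc a a.2 b b.2) }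
  haveI : Finite (Additive V) := inferInstanceAs (Finite V)
  haveI hVnt : Nontrivial V := (Subgroup.nontrivial_iff_ne_bot V).mpr hVne
  haveI : Nontrivial (Additive V) := inferInstance
  have hW : ∀ w : Additive V, p • w = 0 := fun w => by
    show Additive.ofMul (w.toMul ^ p) = 0
    have : w.toMul ^ p = 1 := Subtype.ext (hpow _ w.toMul.2)
    rw [this]
    rfl
  -- conjugation
  let cV : G → V → V := fun g v => ⟨g * v * g⁻¹, hV.conj_mem v v.2 g⟩
  have hcV : ∀ g v, ((cV g v : V) : G) = g * v * g⁻¹ := fun _ _ => rfl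
  have hEndExt : ∀ f g : AddMonoid.End (Additive V),
      (∀ v : V, (((f (Additive.ofMul v)).toMul : V) : G) = ((g (Additive.ofMul v)).toMul : V)) → f = g := by
    intro f g hfg
    refine DFunLike.ext _ _ fun w => ?_
    exact Additive.toMul.injective (Subtype.ext (hfg w.toMul))
  let ρ : H →* AddMonoid.End (Additive V) :=
    { toFun := fun h =>
        { toFun := fun w => Additive.ofMul (cV h.1 w.toMul)
          map_zero' := congrArg Additive.ofMul (Subtype.ext (by
            show h.1 * 1 * h.1⁻¹ = 1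
            simp))
          map_add' := fun a b => congrArg Additive.ofMul (Subtype.ext (by
            show h.1 * (a.toMul.1 * b.toMul.1) * h.1⁻¹ =
              h.1 * a.toMul.1 * h.1⁻¹ * (h.1 * b.toMul.1 * h.1⁻¹)
            group)) }
      map_one' := by
        refine hEndExt _ _ fun v => ?_
        show (1 : G) * v.1 * (1 : G)⁻¹ = v.1
        simp
      map_mul' := fun a b => by
        refine hEndExt _ _ fun v => ?_
        show (a.1 * b.1) * v.1 * (a.1 * b.1)⁻¹ = a.1 * (b.1 * v.1 * b.1⁻¹) * a.1⁻¹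
        group }
  have hρ : ∀ (h : H) (v : V), ((ρ h (Additive.ofMul v)).toMul : V) = cV h.1 v := fun _ _ => rfl
  -- the centralizer
  have hcen : ∀ x ∈ H, (∀ v ∈ V, x * v = v * x) → x = 1 := by
    have hC₀n : (H ⊓ Subgroup.centralizer (V : Set G)).Normal := by
      constructor
      rintro c ⟨hc1, hc2⟩ g
      obtain ⟨h, hh, v, hv, rfl⟩ := hsup g
      have hcv : v * c = c * v := Subgroup.mem_centralizer_iff.mp hc2 v hv
      have e : h * v * c * (h * v)⁻¹ = h * c * h⁻¹ := by
        rw [mul_assoc h v c, hcv]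
        group
      rw [e]
      refine ⟨H.mul_mem (H.mul_mem hh hc1) (H.inv_mem hh), ?_⟩
      have hnc : (Subgroup.centralizer (V : Set G)).Normal := Subgroup.normal_centralizer
      exact hnc.conj_mem c hc2 h
    have hb := hcore _ hC₀n inf_le_left
    intro x hxH hx
    have : x ∈ H ⊓ Subgroup.centralizer (V : Set G) :=
      ⟨hxH, Subgroup.mem_centralizer_iff.mpr fun v hv => (hx v hv).symm⟩
    rw [hb] at this
    exact Subgroup.mem_bot.mp this
  have hf : Function.Injective ρ := by
    intro a b hab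
    have h1 : ∀ v : V, a.1 * v * a.1⁻¹ = b.1 * v * b.1⁻¹ := by
      intro v
      have := DFunLike.congr_fun hab (Additive.ofMul v)
      exact congrArg (fun w : Additive V => ((w.toMul : V) : G)) this
    have h2 := hcen (b.1⁻¹ * a.1) (H.mul_mem (H.inv_mem b.2) a.2) (by
      intro v hv
      have h3 := h1 ⟨v, hv⟩
      calc b.1⁻¹ * a.1 * v = b.1⁻¹ * (a.1 * v * a.1⁻¹) * a.1 := by group
        _ = b.1⁻¹ * (b.1 * v * b.1⁻¹) * a.1 := by rw [h3]
        _ = v * (b.1⁻¹ * a.1) := by group)
    apply Subtype.ext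
    have h4 : a.1 = b.1 := by
      have := congrArg (fun t => b.1 * t) h2
      simpa using this
    exact h4
  have hOp : ∀ P : Subgroup H, P.Normal → IsPGroup p P → P = ⊥ := by
    intro P hPn hPp
    -- the fixed points in `V`
    let Y : Subgroup G :=
      { carrier := {y | y ∈ V ∧ ∀ n : P, (n.1 : G) * y = y * (n.1 : G)}
        one_mem' := ⟨V.one_mem, fun n => by simp⟩
        mul_mem' := by
          rintro x y ⟨hx, hx'⟩ ⟨hy, hy'⟩
          refine ⟨V.mul_mem hx hy, fun n => ?_⟩
          rw [← mul_assoc, hx', mul_assoc, hy', mul_assoc]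
        inv_mem' := by
          rintro x ⟨hx, hx'⟩
          refine ⟨V.inv_mem hx, fun n => ?_⟩
          have h1 : Commute (n.1 : G) x := hx' n
          exact h1.inv_right.eq }
    have hYn : Y.Normal := by
      constructor
      rintro y ⟨hy, hy'⟩ g
      obtain ⟨h, hh, v, hv, rfl⟩ := hsup g
      have hvy : v * y = y * v := hc v hv y hy
      have e : h * v * y * (h * v)⁻¹ = h * y * h⁻¹ := by
        rw [mul_assoc h v y, hvy]
        group
      rw [e]
      refine ⟨hV.conj_mem y hy h, fun n => ?_⟩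
      let h' : H := ⟨h, hh⟩
      have hmem : h'⁻¹ * n.1 * h'⁻¹⁻¹ ∈ P := hPn.conj_mem n.1 n.2 h'⁻¹
      have h2 := hy' ⟨_, hmem⟩
      have h3 : h⁻¹ * (n.1 : G) * h * y = y * (h⁻¹ * (n.1 : G) * h) := by
        simpa [h'] using h2
      calc (n.1 : G) * (h * y * h⁻¹) = h * (h⁻¹ * (n.1 : G) * h * y) * h⁻¹ := by group
        _ = h * (y * (h⁻¹ * (n.1 : G) * h)) * h⁻¹ := by rw [h3]
        _ = h * y * h⁻¹ * (n.1 : G) := by group
    have hYV : Y ≤ V := fun y hy => hy.1
    have hYne : Y ≠ ⊥ := by
      letI : MulAction P V :=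
        { smul := fun n v => cV n.1.1 v
          one_smul := fun v => Subtype.ext (by
            show (1 : G) * v.1 * (1 : G)⁻¹ = v.1
            simp)
          mul_smul := fun a b v => Subtype.ext (by
            show (a.1.1 * b.1.1) * v.1 * (a.1.1 * b.1.1)⁻¹ = a.1.1 * (b.1.1 * v.1 * b.1.1⁻¹) * a.1.1⁻¹
            group) }
      have hsm : ∀ (n : P) (v : V), ((n • v : V) : G) = n.1.1 * v.1 * n.1.1⁻¹ := fun _ _ => rfl
      have h1 : (1 : V) ∈ MulAction.fixedPoints P V := by
        intro n
        apply Subtype.ext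
        rw [hsm]
        simp
      have hpg : IsPGroup p V := fun v => ⟨1, by
        rw [pow_one]
        exact Subtype.ext (hpow _ v.2)⟩
      have hdvd : p ∣ Nat.card V := by
        obtain ⟨n, hn0, hn⟩ := hpg.nontrivial_iff_card.mp hVnt
        rw [hn]
        exact dvd_pow_self _ hn0.ne'
      obtain ⟨b, hb, hb1⟩ := hPp.exists_fixed_point_of_prime_dvd_card_of_fixed_point V hdvd h1
      intro hY
      have hbY : (b : G) ∈ Y := by
        refine ⟨b.2, fun n => ?_⟩
        have h2 := congrArg Subtype.val (hb n)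
        rw [hsm] at h2
        exact mul_inv_eq_iff_eq_mul.mp h2
      rw [hY, Subgroup.mem_bot] at hbY
      exact hb1 (Subtype.ext hbY).symm
    have hYe : Y = V := (hmin Y hYn hYV).resolve_left hYne
    rw [eq_bot_iff]
    intro n hn
    rw [Subgroup.mem_bot]
    apply Subtype.ext
    apply hcen _ n.2
    intro v hv
    rw [← hYe] at hv
    exact hv.2 ⟨n, hn⟩
  have hfinal := part_bound (W := Additive V) p hW ρ hf hOp
  exact hfinal

end Cfsg.Agent.Lib.CharDeep.PartBound
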