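import Mathlib

/-!
# Automorphisms of a reduced finite algebra

`perm_bound`: if a group `E` acts on a finite reduced commutative algebra `L` over a finite field `K` of
characteristic `p` by `K`-algebra endomorphisms, with kernel `C`, then `|K| * |E / C|_p ≤ |L|`.
-/

set_option autoImplicit false

namespace Cfsg.Agent.Lib.CharDeep.PartBound

universe u v w

section Perm

variable {E : Type u} {K : Type v} {L : Type w} [Group E] [Finite E] [Field K] [Finite K]
  [CommRing L] [Algebra K L] [IsReduced L] [Finite L] [Nontrivial L]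

theorem exists_algHom_ne (a : L) (ha : a ≠ 0) :
    ∃ φ : L →ₐ[K] AlgebraicClosure K, φ a ≠ 0 := by
  have hnil : a ∉ nilradical L := by
    rw [nilradical_eq_zero]
    simpa using ha
  rw [nilradical_eq_sInf, Ideal.mem_sInf] at hnil
  push Not at hnil
  obtain ⟨P, hP, haP⟩ := hnil
  have hP' : P.IsPrime := hP
  haveI : Finite (L ⧸ P) := Finite.of_surjective (Ideal.Quotient.mk P) Ideal.Quotient.mk_surjective
  haveI : IsDomain (L ⧸ P) := Ideal.Quotient.isDomain P
  haveI : Module.Finite K L := Module.Finite.of_finite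
  haveI : Module.Finite K (L ⧸ P) := Module.Finite.of_finite
  haveI : Algebra.IsAlgebraic K (L ⧸ P) := Algebra.IsAlgebraic.of_finite K (L ⧸ P)
  let ψ : (L ⧸ P) →ₐ[K] AlgebraicClosure K := IsAlgClosed.lift
  refine ⟨ψ.comp (Ideal.Quotient.mkₐ K P), ?_⟩
  intro h0
  have hne : (Ideal.Quotient.mk P a) ≠ 0 := by
    rwa [Ne, Ideal.Quotient.eq_zero_iff_mem]
  obtain ⟨b, hb⟩ := (Finite.isField_of_domain (L ⧸ P)).mul_inv_cancel hne
  have h1 : ψ (Ideal.Quotient.mk P a * b) = 1 := by rw [hb, map_one]
  rw [map_mul] at h1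
  have h2 : ψ (Ideal.Quotient.mk P a) = 0 := h0
  rw [h2, zero_mul] at h1
  exact zero_ne_one h1

theorem card_algHom_le :
    Finite (L →ₐ[K] AlgebraicClosure K) ∧
      Nat.card (L →ₐ[K] AlgebraicClosure K) ≤ Module.finrank K L := by
  haveI : Module.Finite K L := Module.Finite.of_finite
  have h := cardinalMk_algHom K L (AlgebraicClosure K)
  rw [Module.finrank_linearMap_self] at h
  have hlt : Cardinal.mk (L →ₐ[K] AlgebraicClosure K) < Cardinal.aleph0 :=
    lt_of_le_of_lt h (Cardinal.natCast_lt_aleph0)
  have hfin : Finite (L →ₐ[K] AlgebraicClosure K) := Cardinal.lt_aleph0_iff_finite.mp hlt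
  refine ⟨hfin, ?_⟩
  have := Cardinal.toNat_le_toNat h (Cardinal.natCast_lt_aleph0)
  simpa [Nat.card] using this

theorem padicVal_factorial_le (p n : ℕ) [Fact p.Prime] (hn : n ≠ 0) :
    ordProj[p] (n.factorial) ≤ p ^ (n - 1) := by
  have hp : p.Prime := Fact.out
  have h := padicValNat_factorial_lt_of_ne_zero p hn
  rw [← Nat.factorization_def _ hp] at h
  exact Nat.pow_le_pow_right hp.pos (by omega)

/-- The bound for `|E / C|_p`. -/
theorem perm_bound (p : ℕ) [Fact p.Prime] [CharP K p] (τ : E →* (L →ₐ[K] L)) :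
    Nat.card K * ordProj[p] τ.ker.index ≤ Nat.card L := by
  classical
  have hp : p.Prime := Fact.out
  obtain ⟨hfin, hcard⟩ := card_algHom_le (K := K) (L := L)
  haveI : Module.Finite K L := Module.Finite.of_finite
  set Ω := L →ₐ[K] AlgebraicClosure K with hΩ
  -- the action
  let act : E →* Equiv.Perm Ω :=
    { toFun := fun g =>
        { toFun := fun φ => φ.comp (τ g⁻¹)
          invFun := fun φ => φ.comp (τ g)
          left_inv := fun φ => by
            ext x
            have : τ g⁻¹ (τ g x) = x := by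
              have h : (τ g⁻¹ * τ g) x = x := by rw [← map_mul]; simp
              exact h
            simp [this]
          right_inv := fun φ => by
            ext x
            have : τ g (τ g⁻¹ x) = x := by
              have h : (τ g * τ g⁻¹) x = x := by rw [← map_mul]; simp
              exact h
            simp [this] }
      map_one' := by
        ext φ x
        simp
      map_mul' := fun g h => by
        ext φ x
        simp }
  have hle : act.ker ≤ τ.ker := by
    intro g hg
    rw [MonoidHom.mem_ker] at hg ⊢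
    have hker : ∀ x, τ g⁻¹ x = x := by
      intro x
      by_contra hx
      obtain ⟨φ, hφ⟩ := exists_algHom_ne (K := K) (τ g⁻¹ x - x) (sub_ne_zero.mpr hx)
      apply hφ
      have h1 : act g φ = φ := by rw [hg]; rfl
      have h2 : φ (τ g⁻¹ x) = φ x := by
        exact congrArg (fun ψ : Ω => ψ x) h1
      rw [map_sub, h2, sub_self]
    have h1 : τ g⁻¹ = 1 := by
      ext x
      simp [hker]
    have h2 : τ g * τ g⁻¹ = 1 := by rw [← map_mul]; simp
    rw [h1, mul_one] at h2
    exact h2
  have hd1 : τ.ker.index ∣ act.ker.index := Subgroup.index_dvd_of_le hle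
  have hd2 : act.ker.index ∣ (Nat.card Ω).factorial := by
    rw [Subgroup.index_ker, ← Nat.card_perm]
    exact Subgroup.card_subgroup_dvd_card _
  have hΩpos : Nat.card Ω ≠ 0 := by
    haveI : Nonempty Ω := by
      obtain ⟨φ, _⟩ := exists_algHom_ne (K := K) (1 : L) one_ne_zero
      exact ⟨φ⟩
    exact Nat.card_ne_zero.mpr ⟨inferInstance, hfin⟩
  have hfac0 : (Nat.card Ω).factorial ≠ 0 := Nat.factorial_ne_zero _
  have hd3 : ordProj[p] τ.ker.index ∣ ordProj[p] (Nat.card Ω).factorial :=
    Nat.ordProj_dvd_ordProj_of_dvd hfac0 (hd1.trans hd2) p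
  have h3 := Nat.le_of_dvd (Nat.ordProj_pos _ _) hd3
  have h4 := padicVal_factorial_le p (Nat.card Ω) hΩpos
  set f := Module.finrank K L with hf
  have hfpos : 1 ≤ f := by omega
  have h5 : p ^ (Nat.card Ω - 1) ≤ p ^ (f - 1) := Nat.pow_le_pow_right hp.pos (by omega)
  have hcardL : Nat.card L = Nat.card K ^ f := Module.natCard_eq_pow_finrank
  have hpK : p ≤ Nat.card K := by
    haveI : Fintype K := Fintype.ofFinite K
    obtain ⟨n, hn⟩ := FiniteField.card K p
    rw [Nat.card_eq_fintype_card, hn.2]
    exact Nat.le_self_pow n.ne_zero p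
  have h6 : p ^ (f - 1) ≤ Nat.card K ^ (f - 1) := Nat.pow_le_pow_left hpK _
  calc Nat.card K * ordProj[p] τ.ker.index
      ≤ Nat.card K * Nat.card K ^ (f - 1) :=
        Nat.mul_le_mul_left _ (h3.trans (h4.trans (h5.trans h6)))
    _ = Nat.card L := by
        rw [hcardL, ← pow_succ']
        congr 1
        omega

end Perm

end Cfsg.Agent.Lib.CharDeep.PartBound
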