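import Cfsg.Agent.Lib.CharDeep.PartBound.Act
import Cfsg.Agent.Lib.CharDeep.PartBound.Perm
import Cfsg.Agent.Lib.Core.Basic

/-!
# Irreducible actions: general facts

* `fieldOf`: a commutative subring with inverses is a field.
* `maschke_red`: Maschke's argument, nilpotent elements of the generated algebra vanish.
* `adjS`, `good_adj`: the ring generated by `R` and a `p'`-group of commuting operators.
* `perm_bound_sub`: the automorphism bound inside `End W`.
-/

set_option autoImplicit false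
set_option linter.unusedSectionVars false

namespace Cfsg.Agent.Lib.CharDeep.PartBound

open Cfsg Cfsg.Agent.Lib.Core.Basic

universe u v

theorem p_dvd_card_add {p : ℕ} [Fact p.Prime] {X : Type*} [AddCommGroup X] [Finite X] [Nontrivial X]
    (h : ∀ x : X, p • x = 0) : p ∣ Nat.card X := by
  have hpg : IsPGroup p (Multiplicative X) := fun g => ⟨1, by
    rw [pow_one]
    exact congrArg Multiplicative.ofAdd (h g.toAdd)⟩
  obtain ⟨n, hn0, hn⟩ := hpg.nontrivial_iff_card.mp inferInstance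
  have e : Nat.card (Multiplicative X) = Nat.card X := rfl
  rw [← e, hn]
  exact dvd_pow_self _ hn0.ne'

section Field

variable {W : Type v} [AddCommGroup W]

/-- A commutative subring all of whose nonzero elements are invertible is a field. -/
@[reducible] noncomputable def fieldOf [Nontrivial W] (R : Subring (AddMonoid.End W))
    (hc : ∀ a ∈ R, ∀ b ∈ R, a * b = b * a) (hinv : ∀ a ∈ R, a ≠ 0 → ∃ b ∈ R, a * b = 1) : Field R :=
  letI : CommRing R := { R.toRing with mul_comm := fun a b => Subtype.ext (hc a.1 a.2 b.1 b.2) }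
  have h : IsField R :=
    { exists_pair_ne := ⟨0, 1, fun h => by
        have h1 : (0 : AddMonoid.End W) = 1 := congrArg Subtype.val h
        obtain ⟨x, hx⟩ := exists_ne (0 : W)
        exact hx (by simpa using (DFunLike.congr_fun h1 x).symm)⟩
      mul_comm := mul_comm
      mul_inv_cancel := fun {a} ha => by
        obtain ⟨b, hb, hab⟩ := hinv a.1 a.2 (fun h => ha (Subtype.ext h))
        exact ⟨⟨b, hb⟩, Subtype.ext hab⟩ }
  h.toField

theorem end_sum_apply {ι : Type*} (s : Finset ι) (f : ι → AddMonoid.End W) (w : W) :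
    (∑ i ∈ s, f i) w = ∑ i ∈ s, f i w :=
  map_sum ({ toFun := fun φ => φ w, map_zero' := rfl, map_add' := fun _ _ => rfl } :
    AddMonoid.End W →+ W) f s

variable [Finite W] [Nontrivial W] {R : Subring (AddMonoid.End W)}

theorem maschke_red (hc : ∀ a ∈ R, ∀ b ∈ R, a * b = b * a)
    (hinv : ∀ a ∈ R, a ≠ 0 → ∃ b ∈ R, a * b = 1) {p : ℕ} [Fact p.Prime] (hW : ∀ w : W, p • w = 0)
    {Γ : Type u} [Group Γ] [Finite Γ] (σ : Γ →* AddMonoid.End W)
    (hσR : ∀ g, ∀ r ∈ R, σ g * r = r * σ g) (hcop : ¬ p ∣ Nat.card Γ) {a : AddMonoid.End W}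
    (ha1 : ∀ r ∈ R, r * a = a * r) (ha2 : ∀ g, σ g * a = a * σ g)
    (hdc : ∀ b : AddMonoid.End W, (∀ r ∈ R, b * r = r * b) → (∀ g, b * σ g = σ g * b) → b * a = a * b)
    (haa : a * a = 0) : a = 0 := by
  classical
  have hp : p.Prime := Fact.out
  letI : Fintype Γ := Fintype.ofFinite Γ
  letI : Field R := fieldOf R hc hinv
  letI : Module R W := Module.compHom W (R.subtype)
  have hsmul : ∀ (r : R) (w : W), r • w = r.1 w := fun _ _ => rfl
  let aL : W →ₗ[R] W :=
    { toFun := a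
      map_add' := map_add a
      map_smul' := fun r w => by
        rw [hsmul, RingHom.id_apply, hsmul]
        exact (DFunLike.congr_fun (ha1 r.1 r.2) w).symm }
  let T : Submodule R W := LinearMap.ker aL
  obtain ⟨g, hg⟩ := T.subtype.exists_leftInverse_of_injective (Submodule.ker_subtype T)
  let PL : W →ₗ[R] W := T.subtype ∘ₗ g
  let P : AddMonoid.End W := PL.toAddMonoidHom
  have hPapply : ∀ w, P w = ((g w : T) : W) := fun _ => rfl
  have hP1 : ∀ t, a t = 0 → P t = t := by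
    intro t ht
    have h1 : g t = ⟨t, ht⟩ := LinearMap.congr_fun hg ⟨t, ht⟩
    rw [hPapply, h1]
  have hP2 : ∀ w, a (P w) = 0 := fun w => (g w).2
  have hP3 : ∀ r ∈ R, P * r = r * P := by
    intro r hr
    refine DFunLike.ext _ _ fun w => ?_
    have := PL.map_smul (⟨r, hr⟩ : R) w
    exact this
  let Pb : AddMonoid.End W := ∑ γ : Γ, σ γ * P * σ γ⁻¹
  have hPbapply : ∀ w, Pb w = ∑ γ : Γ, σ γ (P (σ γ⁻¹ w)) := by
    intro w
    simp only [Pb]
    rw [end_sum_apply]
    rfl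
  have hb1 : ∀ r ∈ R, Pb * r = r * Pb := by
    intro r hr
    simp only [Pb, Finset.sum_mul, Finset.mul_sum]
    refine Finset.sum_congr rfl fun γ _ => ?_
    calc σ γ * P * σ γ⁻¹ * r = σ γ * P * (σ γ⁻¹ * r) := by rw [mul_assoc]
      _ = σ γ * P * (r * σ γ⁻¹) := by rw [hσR γ⁻¹ r hr]
      _ = σ γ * (P * r) * σ γ⁻¹ := by noncomm_ring
      _ = σ γ * (r * P) * σ γ⁻¹ := by rw [hP3 r hr]
      _ = (σ γ * r) * P * σ γ⁻¹ := by noncomm_ring
      _ = (r * σ γ) * P * σ γ⁻¹ := by rw [hσR γ r hr]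
      _ = r * (σ γ * P * σ γ⁻¹) := by noncomm_ring
  have hb2 : ∀ h, Pb * σ h = σ h * Pb := by
    intro h
    simp only [Pb, Finset.sum_mul, Finset.mul_sum]
    refine Fintype.sum_equiv (Equiv.mulLeft h⁻¹) _ _ fun γ => ?_
    simp only [Equiv.coe_mulLeft, map_mul, mul_inv_rev, inv_inv]
    have e1 : σ h * σ h⁻¹ = 1 := by rw [← map_mul]; simp
    have e2 : σ h⁻¹ * σ h = 1 := by rw [← map_mul]; simp
    calc σ γ * P * σ γ⁻¹ * σ h = 1 * (σ γ * P * σ γ⁻¹ * σ h) := by rw [one_mul]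
      _ = (σ h * σ h⁻¹) * (σ γ * P * σ γ⁻¹ * σ h) := by rw [e1]
      _ = σ h * (σ h⁻¹ * σ γ * P * (σ γ⁻¹ * σ h)) := by noncomm_ring
  have hza : a * Pb = 0 := by
    refine DFunLike.ext _ _ fun w => ?_
    show a (Pb w) = 0
    rw [hPbapply, map_sum]
    refine Finset.sum_eq_zero fun γ _ => ?_
    have h1 : a (σ γ (P (σ γ⁻¹ w))) = σ γ (a (P (σ γ⁻¹ w))) :=
      (DFunLike.congr_fun (ha2 γ) _).symm
    rw [h1, hP2, map_zero]
  have hzb : Pb * a = 0 := by rw [hdc Pb hb1 hb2, hza]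
  have hcard : ∀ w, Nat.card Γ • a w = 0 := by
    intro w
    have h0 : Pb (a w) = 0 := DFunLike.congr_fun hzb w
    rw [hPbapply] at h0
    have h1 : ∀ γ : Γ, σ γ (P (σ γ⁻¹ (a w))) = a w := by
      intro γ
      have h2 : a (σ γ⁻¹ (a w)) = 0 := by
        have h3 : a (σ γ⁻¹ (a w)) = σ γ⁻¹ (a (a w)) := (DFunLike.congr_fun (ha2 γ⁻¹) _).symm
        have h4 : a (a w) = 0 := DFunLike.congr_fun haa w
        rw [h3, h4, map_zero]
      rw [hP1 _ h2]
      have e : σ γ * σ γ⁻¹ = 1 := by rw [← map_mul]; simp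
      exact DFunLike.congr_fun e (a w)
    rw [Finset.sum_congr rfl (fun γ _ => h1 γ), Finset.sum_const, Finset.card_univ,
      ← Nat.card_eq_fintype_card] at h0
    exact h0
  refine DFunLike.ext _ _ fun w => ?_
  have h1 : addOrderOf (a w) ∣ p := addOrderOf_dvd_of_nsmul_eq_zero (hW _)
  have h2 : addOrderOf (a w) ∣ Nat.card Γ := addOrderOf_dvd_of_nsmul_eq_zero (hcard w)
  rcases (Nat.dvd_prime hp).mp h1 with h3 | h3
  · exact AddMonoid.addOrderOf_eq_one_iff.mp h3
  · rw [h3] at h2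
    exact absurd h2 hcop

end Field

section Adj

variable {W : Type v} [AddCommGroup W] {E : Type u} [Group E]

/-- The ring generated by `R` and `ρ(B)`. -/
def adjS (R : Subring (AddMonoid.End W)) (ρ : E →* AddMonoid.End W) (B : Subgroup E) :
    Subring (AddMonoid.End W) :=
  Subring.closure ((R : Set (AddMonoid.End W)) ∪ ρ '' (B : Set E))

variable {R : Subring (AddMonoid.End W)} {ρ : E →* AddMonoid.End W} {B : Subgroup E}

theorem le_adjS : R ≤ adjS R ρ B := fun _ hx => Subring.subset_closure (Or.inl hx)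

theorem map_mem_adjS {b : E} (hb : b ∈ B) : ρ b ∈ adjS R ρ B :=
  Subring.subset_closure (Or.inr ⟨b, hb, rfl⟩)

theorem adj_comm_of {x : AddMonoid.End W} (hxR : ∀ r ∈ R, x * r = r * x)
    (hxB : ∀ b ∈ B, x * ρ b = ρ b * x) {a : AddMonoid.End W} (ha : a ∈ adjS R ρ B) : x * a = a * x := by
  have h1 := Subring.closure_le_centralizer_centralizer _ ha
  rw [Subring.mem_centralizer_iff] at h1
  apply h1 x
  rw [SetLike.mem_coe, Subring.mem_centralizer_iff]
  rintro s (hs | ⟨b, hb, rfl⟩)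
  · exact (hxR s hs).symm
  · exact (hxB b hb).symm

theorem adj_comm (hc : ∀ a ∈ R, ∀ b ∈ R, a * b = b * a) (hρ : ∀ g, ∀ a ∈ R, ρ g * a = a * ρ g)
    (hB : ∀ x ∈ B, ∀ y ∈ B, x * y = y * x) : ∀ a ∈ adjS R ρ B, ∀ b ∈ adjS R ρ B, a * b = b * a := by
  intro a ha b hb
  -- `a` commutes with the generators
  have h1 : ∀ r ∈ R, a * r = r * a := by
    intro r hr
    exact (adj_comm_of (x := r) (fun s hs => hc r hr s hs)
      (fun c _ => (hρ c r hr).symm) ha).symm
  have h2 : ∀ c ∈ B, a * ρ c = ρ c * a := by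
    intro c hc'
    refine (adj_comm_of (x := ρ c) (fun s hs => hρ c s hs) (fun d hd => ?_) ha).symm
    rw [← map_mul, ← map_mul, hB c hc' d hd]
  exact adj_comm_of h1 h2 hb

theorem good_adj [Finite W] [Nontrivial W] [Finite E] (hR : Good R)
    (hinv : ∀ a ∈ R, a ≠ 0 → ∃ b ∈ R, a * b = 1) {p : ℕ} [Fact p.Prime] (hW : ∀ w : W, p • w = 0)
    (hρ : ∀ g, ∀ a ∈ R, ρ g * a = a * ρ g)
    (hB : ∀ x ∈ B, ∀ y ∈ B, x * y = y * x) (hcop : ¬ p ∣ Nat.card B) : Good (adjS R ρ B) := by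
  have hcomm := adj_comm (B := B) hR.comm hρ hB
  refine ⟨hcomm, fun a ha haa => ?_⟩
  refine maschke_red hR.comm hinv hW (ρ.comp B.subtype) (fun g r hr => hρ g r hr) hcop
    (fun r hr => hcomm r (le_adjS hr) a ha) (fun g => hcomm _ (map_mem_adjS g.2) a ha)
    (fun b hb1 hb2 => adj_comm_of hb1 (fun c hc => hb2 ⟨c, hc⟩) ha) haa

end Adj

section PermSub

variable {W : Type v} [AddCommGroup W] [Finite W] [Nontrivial W] {E : Type u} [Group E] [Finite E]

/-- The automorphism bound inside `End W`. -/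
theorem perm_bound_sub {R L : Subring (AddMonoid.End W)} (hRL : R ≤ L) (hL : Good L)
    (hinv : ∀ a ∈ R, a ≠ 0 → ∃ b ∈ R, a * b = 1) {p : ℕ} [Fact p.Prime] (hW : ∀ w : W, p • w = 0)
    (σ : E →* AddMonoid.End W) (hσR : ∀ g, ∀ a ∈ R, σ g * a = a * σ g)
    (hσL : ∀ g, ∀ a ∈ L, σ g * a * σ g⁻¹ ∈ L) (C : Subgroup E)
    (hC : ∀ g, (∀ a ∈ L, σ g * a * σ g⁻¹ = a) → g ∈ C) :
    Nat.card R * ordProj[p] C.index ≤ Nat.card L := by
  classical
  have hp : p.Prime := Fact.out
  haveI := finite_end (W := W)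
  have hcR : ∀ a ∈ R, ∀ b ∈ R, a * b = b * a := fun a ha b hb => hL.comm a (hRL ha) b (hRL hb)
  letI iK : Field R := fieldOf R hcR hinv
  letI iL : CommRing L := { L.toRing with mul_comm := fun a b => Subtype.ext (hL.comm a.1 a.2 b.1 b.2) }
  letI iA : Algebra R L := (Subring.inclusion hRL).toAlgebra
  haveI hredL : IsReduced L := ⟨fun a ⟨n, hn⟩ =>
    Subtype.ext (hL.eq_zero_of_pow a.2 n (congrArg Subtype.val hn))⟩
  haveI hntL : Nontrivial L := by
    refine ⟨0, 1, fun h => ?_⟩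
    have h1 : (0 : AddMonoid.End W) = 1 := congrArg Subtype.val h
    obtain ⟨x, hx⟩ := exists_ne (0 : W)
    exact hx (by simpa using (DFunLike.congr_fun h1 x).symm)
  haveI hchar : CharP R p := by
    rw [CharP.charP_iff_prime_eq_zero hp]
    apply Subtype.ext
    show ((p : R) : AddMonoid.End W) = 0
    rw [show ((p : R) : AddMonoid.End W) = (p : AddMonoid.End W) from map_natCast R.subtype p]
    refine DFunLike.ext _ _ fun w => ?_
    rw [AddMonoid.End.natCast_apply]
    exact hW w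
  have e1 : ∀ g, σ g * σ g⁻¹ = 1 := fun g => by rw [← map_mul]; simp
  have e2 : ∀ g, σ g⁻¹ * σ g = 1 := fun g => by rw [← map_mul]; simp
  let τ : E →* (L →ₐ[R] L) :=
    { toFun := fun g =>
        { toFun := fun a => ⟨σ g * a.1 * σ g⁻¹, hσL g a.1 a.2⟩
          map_one' := Subtype.ext (by
            show σ g * 1 * σ g⁻¹ = 1
            rw [mul_one, e1])
          map_mul' := fun a b => Subtype.ext (by
            show σ g * (a.1 * b.1) * σ g⁻¹ = σ g * a.1 * σ g⁻¹ * (σ g * b.1 * σ g⁻¹)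
            calc σ g * (a.1 * b.1) * σ g⁻¹ = σ g * a.1 * 1 * (b.1 * σ g⁻¹) := by noncomm_ring
              _ = σ g * a.1 * (σ g⁻¹ * σ g) * (b.1 * σ g⁻¹) := by rw [e2]
              _ = _ := by noncomm_ring)
          map_zero' := Subtype.ext (by
            show σ g * 0 * σ g⁻¹ = 0
            rw [mul_zero, zero_mul])
          map_add' := fun a b => Subtype.ext (by
            show σ g * (a.1 + b.1) * σ g⁻¹ = σ g * a.1 * σ g⁻¹ + σ g * b.1 * σ g⁻¹
            noncomm_ring)
          commutes' := fun r => Subtype.ext (by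
            show σ g * r.1 * σ g⁻¹ = r.1
            rw [hσR g r.1 r.2, mul_assoc, e1, mul_one]) }
      map_one' := by
        refine AlgHom.ext fun a => Subtype.ext ?_
        show σ 1 * a.1 * σ 1⁻¹ = a.1
        simp
      map_mul' := fun g h => by
        refine AlgHom.ext fun a => Subtype.ext ?_
        show σ (g * h) * a.1 * σ (g * h)⁻¹ = σ g * (σ h * a.1 * σ h⁻¹) * σ g⁻¹
        rw [mul_inv_rev, map_mul, map_mul]
        noncomm_ring }
  have hb := perm_bound (K := R) (L := L) p τ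
  have hle : τ.ker ≤ C := by
    intro g hg
    apply hC
    intro a ha
    have h1 : τ g ⟨a, ha⟩ = ⟨a, ha⟩ := by
      rw [MonoidHom.mem_ker] at hg
      rw [hg]
      rfl
    exact congrArg Subtype.val h1
  have hd : C.index ∣ τ.ker.index := Subgroup.index_dvd_of_le hle
  have h0 : τ.ker.index ≠ 0 := Subgroup.index_ne_zero_of_finite
  have hd2 := Nat.ordProj_dvd_ordProj_of_dvd h0 hd p
  have hle2 := Nat.le_of_dvd (Nat.ordProj_pos _ _) hd2
  exact (Nat.mul_le_mul_left _ hle2).trans hb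

end PermSub

end Cfsg.Agent.Lib.CharDeep.PartBound
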