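import Cfsg.Agent.Lib.CharDeep.PartBound.CaseC

/-!
# The `p`-part bound for solvable linear groups

`red_main`: the statement `Red p E` holds for all finite solvable groups.
`part_bound`: if a finite solvable group `E` with `O_p(E) = 1` acts faithfully on a nontrivial finite
abelian group `W` of exponent `p`, then `p * |E|_p ≤ |W|`.
-/

set_option autoImplicit false
set_option linter.unusedSectionVars false

namespace Cfsg.Agent.Lib.CharDeep.PartBound

open Cfsg Cfsg.Agent.Lib.Core.Basic

universe u v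

/-- Passing to the quotient by the kernel. -/
theorem nonfaithful_step {E : Type u} [Group E] {W : Type v} [AddCommGroup W] [Finite W]
    [Nontrivial W] {p : ℕ} {R : Subring (AddMonoid.End W)} {ρ : E →* AddMonoid.End W} [Finite E]
    (hRed : Red.{u, v} p (E ⧸ ρ.ker)) (hW : ∀ w : W, p • w = 0) (hR : Good R)
    (hρ : ∀ g, ∀ a ∈ R, ρ g * a = a * ρ g) : Concl p R ρ := by
  let ρ' : E ⧸ ρ.ker →* AddMonoid.End W := QuotientGroup.lift ρ.ker ρ (fun _ hx => hx)
  have hk : ∀ g : E, ρ' (g : E ⧸ ρ.ker) = ρ g := fun g => rfl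
  obtain ⟨N, hN, hu, hb⟩ := hRed W hW R hR ρ' (by
    intro g a ha
    obtain ⟨g, rfl⟩ := QuotientGroup.mk_surjective g
    rw [hk]
    exact hρ g a ha)
  refine ⟨N.comap (QuotientGroup.mk' ρ.ker), hN.comap _, ?_, ?_⟩
  · intro n hn
    obtain ⟨k, hk'⟩ := hu _ hn
    refine ⟨k, ?_⟩
    rw [← hk', ← hk, QuotientGroup.mk_pow]
    rfl
  · rw [Subgroup.index_comap_of_surjective _ (QuotientGroup.mk'_surjective _)]
    exact hb

theorem red_main (p : ℕ) [Fact p.Prime] : ∀ (n : ℕ) (E : Type u) [Group E] [Finite E]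
    [Group.IsSolvable E], Nat.card E = n → Red.{u, v} p E := by
  intro n
  induction n using Nat.strong_induction_on with
  | _ n IH =>
    intro E _ _ _ hn
    have hOuter : ∀ (E' : Type u) [Group E'] [Finite E'] [Group.IsSolvable E'],
        Nat.card E' < Nat.card E → Red.{u, v} p E' :=
      fun E' _ _ _ hlt => IH _ (hn ▸ hlt) E' rfl
    suffices H : ∀ (m : ℕ) (W : Type v) [AddCommGroup W] [Finite W] [Nontrivial W],
        Nat.card W = m → (∀ w : W, p • w = 0) → ∀ R : Subring (AddMonoid.End W), Good R →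
        ∀ ρ : E →* AddMonoid.End W, (∀ g, ∀ a ∈ R, ρ g * a = a * ρ g) → Concl p R ρ by
      intro W _ _ _ hW R hR ρ hρ
      exact H _ W rfl hW R hR ρ hρ
    intro m
    induction m using Nat.strong_induction_on with
    | _ m IHW =>
      intro W _ _ _ hm hW
      haveI := finite_end (W := W)
      suffices H2 : ∀ (k : ℕ) (R : Subring (AddMonoid.End W)),
          Nat.card (AddMonoid.End W) - Nat.card R = k → Good R →
          ∀ ρ : E →* AddMonoid.End W, (∀ g, ∀ a ∈ R, ρ g * a = a * ρ g) → Concl p R ρ by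
        intro R hR ρ hρ
        exact H2 _ R rfl hR ρ hρ
      intro k
      induction k using Nat.strong_induction_on with
      | _ k IHk =>
        intro R hk hR ρ hρ
        by_cases hf : Function.Injective ρ
        · by_cases hU : ∃ U : AddSubgroup W, (∀ a ∈ R, ∀ x ∈ U, a x ∈ U) ∧
              (∀ g, ∀ x ∈ U, ρ g x ∈ U) ∧ U ≠ ⊥ ∧ U ≠ ⊤
          · obtain ⟨U, h1, h2, h3, h4⟩ := hU
            exact reducible_step hW hR hρ h1 h2 h3 h4
              (fun W' _ _ _ hlt hW' R' hR' ρ' hρ' => IHW _ (hm ▸ hlt) W' rfl hW' R' hR' ρ' hρ')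
          · have hirr : ∀ U : AddSubgroup W, (∀ a ∈ R, ∀ x ∈ U, a x ∈ U) →
                (∀ g, ∀ x ∈ U, ρ g x ∈ U) → U = ⊥ ∨ U = ⊤ := by
              intro U h1 h2
              by_contra hc
              push Not at hc
              exact hU ⟨U, h1, h2, hc.1, hc.2⟩
            let h : IrrData p R ρ := ⟨hW, hR, hρ, hf, hirr⟩
            have hInner : ∀ R' : Subring (AddMonoid.End W), Good R' →
                (∀ g, ∀ a ∈ R', ρ g * a = a * ρ g) → Nat.card R < Nat.card R' → Concl p R' ρ := by
              intro R' hR' hc hlt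
              have hle : Nat.card R' ≤ Nat.card (AddMonoid.End W) :=
                Nat.card_le_card_of_injective (fun a : R' => a.1) Subtype.val_injective
              exact IHk _ (by omega) R' rfl hR' ρ hc
            by_cases hB : ∃ B : Subgroup E, B.Normal ∧ (∀ x ∈ B, ∀ y ∈ B, x * y = y * x) ∧ ¬ B ≤ Zs h
            · obtain ⟨B, h1, h2, h3⟩ := hB
              exact caseB h hOuter hInner h1 h2 h3
            · push Not at hB
              by_cases hZ : Zs h = ⊤
              · exact caseA h hZ
              · exact caseC h hOuter hB hZ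
        · -- not faithful
          have hne : ρ.ker ≠ ⊥ := fun hb => hf ((MonoidHom.ker_eq_bot_iff ρ).mp hb)
          have hlt : Nat.card (E ⧸ ρ.ker) < Nat.card E := by
            have h1 := Subgroup.card_mul_index ρ.ker
            have h2 : Nat.card ρ.ker ≠ 1 := fun h3 => hne (Subgroup.eq_bot_of_card_eq _ h3)
            have h3 : 0 < Nat.card ρ.ker := Nat.card_pos
            have h4 : 0 < ρ.ker.index := Nat.pos_of_ne_zero Subgroup.index_ne_zero_of_finite
            have h5 : Nat.card (E ⧸ ρ.ker) = ρ.ker.index := rfl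
            rw [h5, ← h1]
            have h6 : 2 ≤ Nat.card ρ.ker := by omega
            nlinarith
          exact nonfaithful_step (hOuter _ hlt) hW hR hρ

section Final

variable {W : Type v} [AddCommGroup W] [Finite W] [Nontrivial W]

theorem good_bot {p : ℕ} [Fact p.Prime] (hW : ∀ w : W, p • w = 0) :
    Good (⊥ : Subring (AddMonoid.End W)) := by
  have hp : p.Prime := Fact.out
  have hp0 : ((p : ℤ) : AddMonoid.End W) = 0 := by
    refine DFunLike.ext _ _ fun w => ?_
    have : ((p : ℤ) : AddMonoid.End W) = ((p : ℕ) : AddMonoid.End W) := by simp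
    rw [this, AddMonoid.End.natCast_apply]
    exact hW w
  constructor
  · rintro a ha b hb
    obtain ⟨n, rfl⟩ := Subring.mem_bot.mp ha
    obtain ⟨m, rfl⟩ := Subring.mem_bot.mp hb
    rw [← Int.cast_mul, ← Int.cast_mul, mul_comm]
  · rintro a ha haa
    obtain ⟨n, rfl⟩ := Subring.mem_bot.mp ha
    by_cases hd : (p : ℤ) ∣ n
    · obtain ⟨k, rfl⟩ := hd
      rw [Int.cast_mul, hp0, zero_mul]
    · exfalso
      have hpi : Prime (p : ℤ) := Nat.prime_iff_prime_int.mp hp
      have hcop : IsCoprime (p : ℤ) (n * n) := by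
        apply IsCoprime.mul_right <;>
        exact (hpi.coprime_iff_not_dvd).mpr hd
      obtain ⟨u, v, huv⟩ := hcop
      have h1 : ((u * p + v * (n * n) : ℤ) : AddMonoid.End W) = 1 := by rw [huv, Int.cast_one]
      rw [Int.cast_add, Int.cast_mul, Int.cast_mul, hp0, mul_zero, zero_add, Int.cast_mul,
        haa, mul_zero] at h1
      exact end_one_ne_zero h1.symm

/-- The bound for the `p`-part. -/
theorem part_bound (p : ℕ) [Fact p.Prime] {E : Type u} [Group E] [Finite E] [Group.IsSolvable E]
    (hW : ∀ w : W, p • w = 0) (ρ : E →* AddMonoid.End W) (hf : Function.Injective ρ)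
    (hOp : ∀ P : Subgroup E, P.Normal → IsPGroup p P → P = ⊥) :
    p * ordProj[p] (Nat.card E) ≤ Nat.card W := by
  obtain ⟨N, hN, hu, hb⟩ := red_main.{u, v} p _ E rfl W hW ⊥ (good_bot hW) ρ (by
    intro g a ha
    obtain ⟨n, rfl⟩ := Subring.mem_bot.mp ha
    exact (Int.cast_commute n (ρ g)).symm.eq)
  have hNp : IsPGroup p N := by
    intro n
    obtain ⟨k, hk⟩ := hu n.1 n.2
    refine ⟨k, Subtype.ext (hf ?_)⟩
    simpa using hk
  have hNb := hOp N hN hNp
  rw [hNb, Subgroup.index_bot] at hb
  have hle : p ≤ Nat.card (⊥ : Subring (AddMonoid.End W)) := p_le_card_R hW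
  exact (Nat.mul_le_mul_right _ hle).trans hb

end Final

end Cfsg.Agent.Lib.CharDeep.PartBound
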